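import Cfsg.Agent.Lib.FitHeight.FpfSylow
import Cfsg.Agent.Lib.UniqueInvolution
import Cfsg.Agent.S0065

/-! Pairs of lines of operators with small fixed points: the module part. -/

set_option autoImplicit false

namespace Cfsg.Agent.Lib.FourJoined

open Subgroup Cfsg.Agent.Lib.Coprime
open scoped commutatorElement IsMulCommutative Pointwise

/-- Commuting elements, from the equation. -/
theorem commute' {M : Type*} [Mul M] {a b : M} (h : a * b = b * a) : Commute a b := h

/-- In a cyclic group elements of equal prime order generate the same subgroup. -/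
theorem mem_zpowers_of_cyclic {G : Type*} [Group G] [Finite G] (C : Subgroup G) [IsCyclic C] {a b : G}
    (ha : a ∈ C) (hb : b ∈ C) (h : orderOf b = orderOf a) : b ∈ zpowers a := by
  classical
  haveI := Fintype.ofFinite C
  have he : zpowers (⟨b, hb⟩ : C) = zpowers ⟨a, ha⟩ := by
    have key : ∀ x : C, orderOf x = orderOf a →
        ((zpowers x : Subgroup C) : Set C).toFinset = Finset.univ.filter fun g : C => g ^ orderOf a = 1 := by
      intro x hx
      refine Finset.eq_of_subset_of_card_le (fun g hg => ?_) ?_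
      · rw [Set.mem_toFinset, SetLike.mem_coe] at hg
        obtain ⟨i, rfl⟩ := hg
        rw [Finset.mem_filter, ← hx]
        refine ⟨Finset.mem_univ _, ?_⟩
        show (x ^ i) ^ orderOf x = 1
        rw [← zpow_natCast (x ^ i), ← zpow_mul, mul_comm, zpow_mul, zpow_natCast, pow_orderOf_eq_one, one_zpow]
      · refine (IsCyclic.card_pow_eq_one_le (orderOf_pos a)).trans ?_
        rw [Set.toFinset_card, Fintype.card_eq_nat_card, SetLike.coe_sort_coe, Nat.card_zpowers, hx]
    have h1 := key ⟨b, hb⟩ (by rw [Subgroup.orderOf_mk, h])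
    have h2 := key ⟨a, ha⟩ (by rw [Subgroup.orderOf_mk])
    exact SetLike.coe_injective (Set.toFinset_inj.mp (h1.trans h2.symm))
  have hm : (⟨b, hb⟩ : C) ∈ zpowers (⟨a, ha⟩ : C) := he ▸ mem_zpowers _
  obtain ⟨i, hi⟩ := hm
  exact ⟨i, congrArg Subtype.val hi⟩

section cyc

variable {G : Type*} [Group G] [Finite G] {p : ℕ} [Fact p.Prime]

/-- A coprime operator on a cyclic `p`-group that fixes an element of order `p` fixes everything. -/
theorem le_centralizer_of_cyclic {C A : Subgroup G} (hC : IsPGroup p C) [IsCyclic C]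
    (hAC : A ≤ normalizer (C : Set G)) (hcop : (Nat.card A).Coprime (Nat.card C))
    {e : G} (he : e ∈ C) (he1 : e ≠ 1) (hfix : e ∈ centralizer (A : Set G)) :
    A ≤ centralizer (C : Set G) := by
  rw [le_centralizer_iff]
  by_contra h
  have hne : ⁅C, A⁆ ≠ ⊥ := fun h0 => h (commutator_eq_bot_iff_le_centralizer.mp h0)
  have hle : ⁅C, A⁆ ≤ C := commutator_le_of_le_normalizer' hAC
  have hbot := inf_centralizer_inf_commutator hAC hcop
  obtain ⟨u, hu, hu1⟩ := (Subgroup.bot_or_exists_ne_one _).resolve_left hne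
  have key : ∀ x ∈ C, x ≠ 1 → ∃ w : G, orderOf w = p ∧ w ∈ zpowers x := by
    intro x hx hx1
    obtain ⟨k, hk⟩ := IsPGroup.iff_orderOf.mp hC ⟨x, hx⟩
    rw [Subgroup.orderOf_mk] at hk
    have hk0 : k ≠ 0 := fun h0 => hx1 (orderOf_eq_one_iff.mp (by rw [hk, h0, pow_zero]))
    exact ⟨x ^ (orderOf x / p), orderOf_pow_orderOf_div (orderOf_pos x).ne'
      (hk ▸ dvd_pow_self p hk0), pow_mem (mem_zpowers x) _⟩
  obtain ⟨a, ha, hae⟩ := key e he he1
  obtain ⟨b, hb, hbu⟩ := key u (hle hu) hu1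
  have haC : a ∈ C := zpowers_le.mpr he hae
  have hbC : b ∈ C := zpowers_le.mpr (hle hu) hbu
  have hab : a ∈ zpowers b := mem_zpowers_of_cyclic C hbC haC (ha.trans hb.symm)
  have : a ∈ (⊥ : Subgroup G) := hbot ▸ Subgroup.mem_inf.mpr
    ⟨Subgroup.mem_inf.mpr ⟨haC, zpowers_le.mpr hfix hae⟩, zpowers_le.mpr (zpowers_le.mpr hu hbu) hab⟩
  rw [mem_bot] at this
  rw [this, orderOf_one] at ha
  exact (Fact.out : p.Prime).one_lt.ne ha

end cyc

section module

variable {V : Type*} [CommGroup V] [Finite V]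

/-- Endomorphisms commuting with `z`, evaluated at `v`, reach the whole span of the translates of `v`. -/
theorem exists_endo (z : MulAut V) (v : V) {w : V}
    (hw : w ∈ Subgroup.closure {w : V | ∃ g ∈ zpowers z, w = g v}) :
    ∃ φ : V →* V, φ v = w ∧ ∀ g : V →* V, (∀ x, g (z x) = z (g x)) → ∀ x, φ (g x) = g (φ x) := by
  induction hw using Subgroup.closure_induction with
  | mem w hw =>
    obtain ⟨g, hg, rfl⟩ := hw
    refine ⟨g.toMonoidHom, rfl, fun f hf x => ?_⟩
    obtain ⟨n, rfl⟩ : ∃ n : ℕ, z ^ n = g := by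
      rw [← mem_powers_iff_mem_zpowers] at hg
      exact hg
    change (z ^ n) (f x) = f ((z ^ n) x)
    clear hg
    induction n generalizing x with
    | zero => simp
    | succ n ih => rw [pow_succ', MulAut.mul_apply, MulAut.mul_apply, hf, ih]
  | one => exact ⟨1, rfl, fun f _ x => by simp⟩
  | mul w w' _ _ h h' =>
    obtain ⟨φ, h1, h2⟩ := h
    obtain ⟨ψ, h3, h4⟩ := h'
    exact ⟨φ * ψ, by simp [h1, h3], fun f hf x => by simp [h2 f hf, h4 f hf, map_mul]⟩
  | inv w _ h =>
    obtain ⟨φ, h1, h2⟩ := h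
    exact ⟨φ⁻¹, by simp [h1], fun f hf x => by simp [h2 f hf, map_inv]⟩

/-- If `y` of prime order acts fixed point freely on a line of operators `Z`, then, up to fixed points
of `Z`, everything is generated by translates of fixed points of `y`. -/
theorem pow_mem_sup {z y : MulAut V} {s t : ℕ} (hs : s.Prime) (ht : t.Prime) (hzs : orderOf z = s)
    (hy : y ^ t = 1) (hyz : y * z * y⁻¹ ∈ zpowers z) (hne : y * z ≠ z * y)
    (N : Subgroup V) (v : V)
    (hN : ∀ g ∈ zpowers z, ∀ i ∈ zpowers z, g (∏ k ∈ Finset.range t, (y ^ k) (i v)) ∈ N) :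
    ∃ c : V, z c = c ∧ c * v ^ s ∈ N := by
  classical
  haveI := Fact.mk hs
  haveI := Fact.mk ht
  set Z := zpowers z
  haveI := Fintype.ofFinite Z
  have hcard : Fintype.card Z = s := by rw [Fintype.card_eq_nat_card, Nat.card_zpowers, hzs]
  have hyN : ∀ a ∈ Z, y * a * y⁻¹ ∈ Z := by
    rintro _ ⟨i, rfl⟩
    rw [← conj_zpow]
    exact zpow_mem hyz i
  have hykN : ∀ k : ℕ, ∀ a ∈ Z, y ^ k * a * (y ^ k)⁻¹ ∈ Z := by
    intro k
    induction k with
    | zero => intro a ha; simpa
    | succ k ih =>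
      intro a ha
      have e : y ^ (k + 1) * a * (y ^ (k + 1))⁻¹ = y * (y ^ k * a * (y ^ k)⁻¹) * y⁻¹ := by
        rw [pow_succ']; group
      exact e ▸ hyN _ (ih a ha)
  let f : ℕ → Z → Z := fun k a => ⟨(a : MulAut V) * (y ^ k * (a : MulAut V)⁻¹ * (y ^ k)⁻¹),
    Z.mul_mem a.2 (hykN k _ (Z.inv_mem a.2))⟩
  have hzero : ∀ x : Z, (x : MulAut V) * z = z * x := fun x => by
    obtain ⟨i, hi⟩ := x.2
    rw [← hi]; exact ((Commute.refl z).zpow_left i).eq
  have hfix : ∀ k, k ≠ 0 → k < t → Function.Injective (f k) := by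
    intro k hk0 hkt a b hab
    have hab' : (a : MulAut V) * (y ^ k * (a : MulAut V)⁻¹ * (y ^ k)⁻¹) =
        (b : MulAut V) * (y ^ k * (b : MulAut V)⁻¹ * (y ^ k)⁻¹) := congrArg Subtype.val hab
    set u : MulAut V := (b : MulAut V)⁻¹ * a with hu
    have huZ : u ∈ Z := Z.mul_mem (Z.inv_mem b.2) a.2
    have huk : u * y ^ k = y ^ k * u := by
      have h1 : u * (y ^ k * (a : MulAut V)⁻¹ * (y ^ k)⁻¹) = y ^ k * (b : MulAut V)⁻¹ * (y ^ k)⁻¹ := by
        rw [hu, mul_assoc, hab', inv_mul_cancel_left]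
      calc u * y ^ k = u * (y ^ k * (a : MulAut V)⁻¹ * (y ^ k)⁻¹) * (y ^ k * a) := by group
        _ = y ^ k * u := by rw [h1, hu]; group
    by_contra hne'
    have hu1 : u ≠ 1 := fun h => hne' (Subtype.ext (inv_mul_eq_one.mp (hu ▸ h)).symm)
    have hgen : z ∈ zpowers u := by
      have : zpowers u = Z := eq_of_le_of_card_ge (zpowers_le.mpr huZ) (by
        have hd := orderOf_dvd_natCard Z huZ
        rw [Nat.card_zpowers, hzs] at hd
        rw [Nat.card_zpowers, Nat.card_zpowers, hzs]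
        rcases hs.eq_one_or_self_of_dvd _ hd with h | h
        · exact absurd (orderOf_eq_one_iff.mp h) hu1
        · exact h.ge)
      exact this ▸ mem_zpowers z
    have hcz : Commute z (y ^ k) := by
      obtain ⟨i, hi⟩ := hgen
      rw [← hi]; exact (commute' huk).zpow_left i
    obtain ⟨j, hj⟩ : ∃ j : ℕ, (y ^ k) ^ j = y := by
      have : k.Coprime (orderOf y) := by
        rcases ht.eq_one_or_self_of_dvd _ (orderOf_dvd_of_pow_eq_one hy) with h | h
        · rw [h]; exact Nat.coprime_one_right k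
        · rw [h]; exact (Nat.coprime_of_lt_prime hk0 hkt ht).symm
      exact exists_pow_eq_self_of_coprime this
    exact hne (by rw [← hj]; exact ((hcz.pow_right j).eq).symm)
  have horb : ∀ w : V, z (∏ a : Z, (a : MulAut V) w) = ∏ a : Z, (a : MulAut V) w := by
    intro w
    rw [map_prod]
    exact Fintype.prod_equiv (Equiv.mulLeft (⟨z, mem_zpowers z⟩ : Z)) _ _ fun a => rfl
  set S := ∏ a : Z, (a : MulAut V) (∏ k ∈ Finset.range t, (y ^ k) (((a : MulAut V)⁻¹) v)) with hS
  have hSN : S ∈ N := N.prod_mem fun a _ => hN _ a.2 _ (Z.inv_mem a.2)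
  have hexp : S = ∏ k ∈ Finset.range t, ∏ a : Z, (f k a : MulAut V) ((y ^ k) v) := by
    rw [hS]
    simp_rw [map_prod]
    rw [Finset.prod_comm]
    refine Finset.prod_congr rfl fun k _ => Finset.prod_congr rfl fun a _ => ?_
    show _ = ((a : MulAut V) * (y ^ k * (a : MulAut V)⁻¹ * (y ^ k)⁻¹)) ((y ^ k) v)
    simp only [← MulAut.mul_apply]
    congr 1
    group
  obtain ⟨t', ht'⟩ : ∃ t', t = t' + 1 := ⟨t - 1, by have := ht.pos; omega⟩
  rw [ht', Finset.prod_range_succ'] at hexp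
  have h0 : ∏ a : Z, (f 0 a : MulAut V) ((y ^ 0) v) = v ^ s := by
    rw [← hcard, ← Finset.card_univ, ← Finset.prod_const]
    exact Finset.prod_congr rfl fun a _ => by simp [f]
  refine ⟨∏ k ∈ Finset.range t', ∏ a : Z, (f (k + 1) a : MulAut V) ((y ^ (k + 1)) v), ?_, ?_⟩
  · rw [map_prod]
    refine Finset.prod_congr rfl fun k hk => ?_
    rw [Finset.mem_range] at hk
    have hb : Function.Bijective (f (k + 1)) :=
      (Finite.injective_iff_bijective).mp (hfix _ (by omega) (by omega))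
    rw [Fintype.prod_bijective _ hb _ (fun a : Z => (a : MulAut V) ((y ^ (k + 1)) v)) fun a => rfl]
    exact horb _
  · rw [h0] at hexp
    exact hexp ▸ hSN

/-- The form of `pow_mem_sup` used below. -/
theorem exists_fixed_decomp {z y : MulAut V} {s t : ℕ} (hs : s.Prime) (ht : t.Prime) (hzs : orderOf z = s)
    (hy : y ^ t = 1) (hyz : y * z * y⁻¹ ∈ zpowers z) (hne : y * z ≠ z * y) (hcop : s.Coprime (Nat.card V))
    (N : Subgroup V) (v : V)
    (hN : ∀ g ∈ zpowers z, ∀ i ∈ zpowers z, g (∏ k ∈ Finset.range t, (y ^ k) (i v)) ∈ N) :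
    ∃ c : V, z c = c ∧ c * v ∈ N := by
  obtain ⟨c, hc, hcN⟩ := pow_mem_sup hs ht hzs hy hyz hne N v hN
  obtain ⟨m, hm⟩ : ∃ m : ℕ, (v ^ s) ^ m = v :=
    exists_pow_eq_self_of_coprime (hcop.coprime_dvd_right (orderOf_dvd_natCard v))
  refine ⟨c ^ m, by rw [map_pow, hc], ?_⟩
  rw [← hm, ← mul_pow]
  exact N.pow_mem hcN m

theorem smul_cyc {y : MulAut V} {t : ℕ} (hy : y ^ t = 1) (w : V) :
    y (∏ k ∈ Finset.range t, (y ^ k) w) = ∏ k ∈ Finset.range t, (y ^ k) w := by
  rw [map_prod]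
  simp only [← MulAut.mul_apply, ← pow_succ']
  refine mul_right_cancel (b := (y ^ 0) w) ?_
  rw [← Finset.prod_range_succ' (fun k => (y ^ k) w), Finset.prod_range_succ, hy, pow_zero]

/-- Two operators of order `t` moving each a line of a cyclic... the key lemma. -/
theorem isCyclic_of_small_fixed {s t r : ℕ} [Fact s.Prime] (ht : t.Prime) (hr : r.Prime)
    (hVr : IsPGroup r V) (hsr : s ≠ r) (hst : s ≠ t)
    (E T : Subgroup (MulAut V)) (hE : IsPGroup s E)
    (hT : ∀ a ∈ T, ∀ b ∈ T, a * b = b * a) (hTexp : ∀ a ∈ T, a ^ t = 1) (hTcard : Nat.card T = t ^ 2)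
    (hTE : T ≤ normalizer (E : Set (MulAut V)))
    (hCE : ∀ y ∈ T, y ≠ 1 → IsCyclic (E ⊓ centralizer {y} : Subgroup (MulAut V)))
    (hCV : ∀ y ∈ T, y ≠ 1 → ∀ v w : V, y v = v → y w = w → v ≠ 1 → w ∈ zpowers v) :
    IsCyclic E := by
  classical
  haveI := Fact.mk ht
  have hs : s.Prime := Fact.out
  have hcopV : s.Coprime (Nat.card V) := by
    obtain ⟨n, hn⟩ := @IsPGroup.iff_card r V _ (Fact.mk hr) |>.mp hVr
    rw [hn]; exact ((Nat.coprime_primes hs hr).mpr hsr).pow_right n
  have hcopTK : ∀ K : Subgroup (MulAut V), IsPGroup s K → (Nat.card T).Coprime (Nat.card K) := by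
    intro K hK
    obtain ⟨n, hn⟩ := IsPGroup.iff_card.mp hK
    rw [hTcard, hn]; exact (((Nat.coprime_primes ht hs).mpr hst.symm).pow_left 2).pow_right n
  have hgenT : ∀ K : Subgroup (MulAut V), IsPGroup s K → T ≤ normalizer (K : Set (MulAut V)) →
      fixGen T K = K := fun K hK hTK =>
    fixGen_eq_of_elementary ht hT hTexp hTcard hTK (hcopTK K hK)
  by_contra hEc
  -- the torsion of a T-invariant abelian piece
  have hTne : T ≠ ⊥ := by
    intro h; rw [h, Subgroup.card_bot] at hTcard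
    have := ht.two_le; nlinarith
  have hEne : E ≠ ⊥ := fun h => hEc (by rw [h]; infer_instance)
  let Cn : Subgroup (MulAut V) := E ⊓ centralizer (E : Set (MulAut V))
  let X : Subgroup (MulAut V) := if ⁅E, E⁆ = ⊥ then Cn else Cn ⊓ ⁅E, E⁆
  have hXE : X ≤ Cn := by
    show (if _ then _ else _) ≤ _
    split_ifs with h
    · exact le_rfl
    · exact inf_le_left
  have hTCn : T ≤ normalizer (Cn : Set (MulAut V)) := fun a ha => by
    refine mem_normalizer_of_conj_smul_eq ?_
    rw [conj_smul_inf, conj_smul_eq_self (hTE ha),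
      conj_smul_eq_self (normalizer_le_normalizer_centralizer E (hTE ha))]
  have hTX : T ≤ normalizer (X : Set (MulAut V)) := by
    show T ≤ normalizer ((if _ then _ else _ : Subgroup (MulAut V)) : Set (MulAut V))
    split_ifs with h
    · exact hTCn
    · intro a ha
      refine mem_normalizer_of_conj_smul_eq ?_
      rw [conj_smul_inf, conj_smul_eq_self (hTCn ha), conj_smul_eq_self]
      refine mem_normalizer_of_conj_smul_eq ?_
      have e : MulAut.conj a • E = E := conj_smul_eq_self (hTE ha)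
      calc MulAut.conj a • ⁅E, E⁆ = ⁅MulAut.conj a • E, MulAut.conj a • E⁆ := map_commutator E E _
        _ = ⁅E, E⁆ := by rw [e]
  have hXne : X ≠ ⊥ := by
    show (if _ then _ else _ : Subgroup (MulAut V)) ≠ ⊥
    have hnil := hE.isNilpotent
    have key : ∀ N : Subgroup (MulAut V), N ≤ E → E ≤ normalizer (N : Set (MulAut V)) → N ≠ ⊥ →
        Cn ⊓ N ≠ ⊥ := by
      intro N hNE hEN hN hb
      haveI : Group.IsNilpotent E := hnil
      haveI hNn : (N.subgroupOf E).Normal := (normal_subgroupOf_iff_le_normalizer hNE).mpr hEN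
      refine Cfsg.Agent.S0065.inf_center_ne_bot hNn (fun h0 =>
        hN (by rw [← map_subgroupOf_eq_of_le hNE, h0, Subgroup.map_bot])) ?_
      rw [eq_bot_iff]
      intro x hx
      have : (x : MulAut V) ∈ Cn ⊓ N := by
        refine ⟨⟨x.2, mem_centralizer_iff.mpr fun g hg => ?_⟩, hx.1⟩
        exact congrArg Subtype.val (mem_center_iff.mp hx.2 ⟨g, hg⟩)
      rw [hb, mem_bot] at this
      exact Subtype.ext this
    split_ifs with h
    · simpa [Cn, inf_assoc, inf_comm, inf_left_comm] using key E le_rfl le_normalizer hEne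
    · exact key _ (commutator_le.mpr fun a ha b hb => E.mul_mem (E.mul_mem (E.mul_mem ha hb)
        (E.inv_mem ha)) (E.inv_mem hb)) (left_le_normalizer_commutator E E) h
  obtain ⟨y0, hy0T, hy01, hy0X⟩ : ∃ y ∈ T, y ≠ 1 ∧ X ⊓ centralizer {y} ≠ ⊥ := by
    by_contra h
    push Not at h
    refine hXne (eq_bot_iff.mpr ?_)
    rw [← hgenT X (hE.to_le (hXE.trans inf_le_left)) hTX]
    exact iSup₂_le fun a ha => (h a ha.1 ha.2).le
  obtain ⟨x, hx, hx1⟩ := (Subgroup.bot_or_exists_ne_one _).resolve_left hy0X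
  obtain ⟨z, hzord, hzx⟩ : ∃ z, orderOf z = s ∧ z ∈ zpowers x := by
    obtain ⟨k, hk⟩ := IsPGroup.iff_orderOf.mp hE ⟨x, (hXE hx.1).1⟩
    rw [Subgroup.orderOf_mk] at hk
    have hk0 : k ≠ 0 := fun h0 => hx1 (orderOf_eq_one_iff.mp (by rw [hk, h0, pow_zero]))
    exact ⟨x ^ (orderOf x / s), orderOf_pow_orderOf_div (orderOf_pos x).ne'
      (hk ▸ dvd_pow_self s hk0), pow_mem (mem_zpowers x) _⟩
  have hzX : z ∈ X ⊓ centralizer {y0} := zpowers_le.mpr hx hzx
  have hzE : z ∈ E := (hXE hzX.1).1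
  have hzc : ∀ g ∈ E, g * z = z * g := fun g hg => mem_centralizer_iff.mp (hXE hzX.1).2 g hg
  have hz1 : z ≠ 1 := fun h => hs.one_lt.ne (by rw [← hzord, h, orderOf_one])
  have hTCy : ∀ y ∈ T, T ≤ normalizer ((E ⊓ centralizer {y} : Subgroup (MulAut V)) : Set (MulAut V)) := by
    intro y hy a ha
    refine mem_normalizer_of_conj_smul_eq ?_
    rw [conj_smul_inf, conj_smul_eq_self (hTE ha), conj_smul_eq_self]
    exact le_normalizer (mem_centralizer_singleton_iff.mpr (hT a ha y hy))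
  -- a line in `E ∩ C(y)` of order `s` is the whole torsion there
  have hline : ∀ y ∈ T, y ≠ 1 → ∀ a b : MulAut V, a ∈ E → y * a = a * y → orderOf a = s → b ∈ E →
      y * b = b * y → orderOf b = s → b ∈ zpowers a := by
    intro y hy hy1 a b ha hya haord hb hyb hbord
    haveI := hCE y hy hy1
    exact mem_zpowers_of_cyclic (E ⊓ centralizer {y})
      (Subgroup.mem_inf.mpr ⟨ha, mem_centralizer_singleton_iff.mpr hya.symm⟩)
      (Subgroup.mem_inf.mpr ⟨hb, mem_centralizer_singleton_iff.mpr hyb.symm⟩) (hbord.trans haord.symm)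
  have hy0z : y0 * z = z * y0 := (mem_centralizer_singleton_iff.mp hzX.2).symm
  by_cases hall : ∀ y ∈ T, y * z = z * y
  · refine hEc ?_
    have key : E ≤ centralizer (T : Set (MulAut V)) := by
      rw [← hgenT E hE hTE]
      refine iSup₂_le fun y hy => ?_
      haveI := hCE y hy.1 hy.2
      rw [le_centralizer_iff]
      exact le_centralizer_of_cyclic (e := z) (hE.to_le inf_le_left) (hTCy y hy.1)
        (hcopTK _ (hE.to_le inf_le_left))
        ⟨hzE, mem_centralizer_singleton_iff.mpr (hall y hy.1).symm⟩ hz1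
        (mem_centralizer_iff.mpr hall)
    have : E ⊓ centralizer {y0} = E := inf_eq_left.mpr fun g hg =>
      mem_centralizer_singleton_iff.mpr (mem_centralizer_iff.mp (key hg) y0 hy0T).symm
    exact this ▸ hCE y0 hy0T hy01
  push Not at hall
  obtain ⟨y', hy'T, hy'z⟩ := hall
  have hy'1 : y' ≠ 1 := fun h => hy'z (by simp [h])
  -- conjugates of a line fixed by some element of T
  have hnz : ∀ y ∈ T, y * z * y⁻¹ ∈ zpowers z := fun y hy =>
    hline y0 hy0T hy01 z (y * z * y⁻¹) hzE hy0z hzord ((mem_normalizer_iff.mp (hTE hy) z).mp hzE)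
      (by rw [← mul_assoc, ← mul_assoc, hT y0 hy0T y hy, mul_assoc y, hy0z]
          simp only [mul_assoc]
          rw [show y0 * y⁻¹ = y⁻¹ * y0 from ((commute' (hT y0 hy0T y hy)).inv_right).eq])
      (by rw [← hzord]; exact (orderOf_injective (MulAut.conj y).toMonoidHom (MulAut.conj y).injective z))
  have hconjz : z ^ (orderOf z) = 1 := pow_orderOf_eq_one z
  -- fixed points of a mover are not fixed by the line
  have hout : ∀ (e : MulAut V), e ∈ E → orderOf e = s → ∀ y ∈ T, y * e * y⁻¹ ∈ zpowers e → y * e ≠ e * y →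
      ∀ (N : Subgroup V), (∀ g ∈ zpowers e, ∀ w ∈ N, g w ∈ N) → (∀ w ∈ N, y w = w → e w = w) →
        (∀ w ∈ N, y w ∈ N) → ∀ w ∈ N, e w = w := by
    intro e he heord y hy hye hne N hNe hfix hNy w hw
    let F : Subgroup V :=
      { carrier := {v | e v = v}
        one_mem' := map_one e
        mul_mem' := fun {a b} ha hb => by
          show e (a * b) = a * b
          rw [map_mul, ha, hb]
        inv_mem' := fun {a} ha => by show e a⁻¹ = a⁻¹; rw [map_inv, ha] }
    obtain ⟨c, hc, hcN⟩ := exists_fixed_decomp hs ht heord (hTexp y hy) hye hne hcopV F w fun g hg i hi => by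
      have hmemN : (∏ k ∈ Finset.range t, (y ^ k) (i w)) ∈ N := N.prod_mem fun k _ => by
        have hiw := hNe i hi w hw
        clear * - hiw hNy
        induction k with
        | zero => simpa using hiw
        | succ k ih => rw [pow_succ', MulAut.mul_apply]; exact hNy _ ih
      have h1 : e (∏ k ∈ Finset.range t, (y ^ k) (i w)) = ∏ k ∈ Finset.range t, (y ^ k) (i w) :=
        hfix _ hmemN (smul_cyc (hTexp y hy) _)
      show e (g _) = g _
      obtain ⟨j, rfl⟩ := hg
      show e ((e ^ j) _) = (e ^ j) _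
      rw [← MulAut.mul_apply, ((Commute.refl e).zpow_right j).eq, MulAut.mul_apply, h1]
    have h2 : e (c * w) = c * w := hcN
    rw [map_mul, hc] at h2
    exact mul_left_cancel h2
  -- everything is spanned by fixed points of the line and translates of a fixed point of a mover
  have hspan : ∀ (e : MulAut V), e ∈ E → orderOf e = s → ∀ y ∈ T, y * e * y⁻¹ ∈ zpowers e → y * e ≠ e * y →
      ∃ v : V, y v = v ∧ e v ≠ v ∧
        ∀ w, ∃ c, e c = c ∧ c * w ∈ Subgroup.closure {u : V | ∃ g ∈ zpowers e, u = g v} := by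
    intro e he heord y hy hye hne
    have hy1 : y ≠ 1 := fun h => hne (by simp [h])
    obtain ⟨v, hyv, hev⟩ : ∃ v, y v = v ∧ e v ≠ v := by
      by_contra h
      push Not at h
      have he1 : e = 1 := MulEquiv.ext fun w =>
        hout e he heord y hy hye hne ⊤ (fun _ _ _ _ => mem_top _) (fun w _ => h w) (fun _ _ => mem_top _) w
          (mem_top w)
      rw [he1, orderOf_one] at heord
      exact hs.one_lt.ne heord
    have hv1 : v ≠ 1 := fun h => hev (by rw [h, map_one])
    refine ⟨v, hyv, hev, fun w => exists_fixed_decomp hs ht heord (hTexp y hy) hye hne hcopV _ w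
      fun g hg i hi => ?_⟩
    obtain ⟨m, hm⟩ := hCV y hy hy1 v _ hyv (smul_cyc (hTexp y hy) (i w)) hv1
    rw [← hm, map_zpow]
    exact Subgroup.zpow_mem _ (Subgroup.subset_closure (show g v ∈ {u : V | ∃ g ∈ zpowers e, u = g v} from ⟨g, hg, rfl⟩)) m
  obtain ⟨v, hy'v, hzv, hsp⟩ := hspan z hzE hzord y' hy'T (hnz y' hy'T) hy'z
  let π : V →* V := (z : V ≃* V).toMonoidHom / MonoidHom.id V
  have hπ : ∀ w, π w = z w / w := fun w => rfl
  have hπ1 : ∀ w, π w = 1 ↔ z w = w := fun w => by rw [hπ, div_eq_one]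
  have hπc : ∀ g ∈ E, ∀ w, π (g w) = g (π w) := fun g hg w => by
    rw [hπ, hπ, map_div, ← MulAut.mul_apply, ← hzc g hg, MulAut.mul_apply]
  -- abelian
  by_cases hcomm : ⁅E, E⁆ = ⊥
  swap
  · have hab : ∀ a ∈ E, ∀ b ∈ E, ∀ w, π (a (b w)) = π (b (a w)) := by
      intro a ha b hb
      have hφ : ∀ g ∈ E, ∃ φ : V →* V, π (g v) = π (φ v) ∧
          ∀ f : V →* V, (∀ x, f (z x) = z (f x)) → ∀ x, φ (f x) = f (φ x) := by
        intro g _
        obtain ⟨c, hc, hcm⟩ := hsp (g v)
        obtain ⟨φ, hφv, hφc⟩ := exists_endo z v hcm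
        exact ⟨φ, by rw [hφv, map_mul, (hπ1 c).mpr hc, one_mul], hφc⟩
      obtain ⟨φ, hφv, hφc⟩ := hφ a ha
      obtain ⟨ψ, hψv, hψc⟩ := hφ b hb
      have hz' : ∀ g ∈ E, ∀ x, g.toMonoidHom (z x) = z (g.toMonoidHom x) := fun g hg x => by
        show (g * z) x = (z * g) x
        rw [hzc g hg]
      have hφz : ∀ x, φ (z x) = z (φ x) := hφc z.toMonoidHom fun x => rfl
      have hψz : ∀ x, ψ (z x) = z (ψ x) := hψc z.toMonoidHom fun x => rfl
      have hπφ : ∀ x, π (φ x) = φ (π x) := fun x => by rw [hπ, hπ, map_div, hφz]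
      have hπψ : ∀ x, π (ψ x) = ψ (π x) := fun x => by rw [hπ, hπ, map_div, hψz]
      have hv : π (a (b v)) = π (b (a v)) := by
        calc π (a (b v)) = a (π (b v)) := hπc a ha _
          _ = a (ψ (π v)) := by rw [hψv, hπψ]
          _ = ψ (a (π v)) := (hψc a.toMonoidHom (hz' a ha) _).symm
          _ = ψ (φ (π v)) := by rw [← hπc a ha, hφv, hπφ]
          _ = φ (ψ (π v)) := (hφc ψ hψz _).symm
          _ = φ (b (π v)) := by rw [← hπc b hb, hψv, hπψ]
          _ = b (φ (π v)) := hφc b.toMonoidHom (hz' b hb) _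
          _ = b (π (a v)) := by rw [hφv, hπφ]
          _ = π (b (a v)) := (hπc b hb _).symm
      intro w
      obtain ⟨c, hc, hcm⟩ := hsp w
      have key : ∀ u ∈ Subgroup.closure {u : V | ∃ g ∈ zpowers z, u = g v}, π (a (b u)) = π (b (a u)) := by
        intro u hu
        induction hu using Subgroup.closure_induction with
        | mem u hu =>
          obtain ⟨g, ⟨j, rfl⟩, rfl⟩ := hu
          have hcz : ∀ g ∈ E, ∀ x, g ((z ^ j) x) = (z ^ j) (g x) := fun g hg x => by
            rw [← MulAut.mul_apply, ((commute' (hzc g hg)).zpow_right j).eq, MulAut.mul_apply]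
          rw [hcz b hb, hcz a ha, hcz a ha, hcz b hb, hπc _ (E.zpow_mem hzE j), hπc _ (E.zpow_mem hzE j), hv]
        | one => simp
        | mul u u' _ _ h h' => simp [map_mul, h, h']
        | inv u _ h => simp [map_inv, h]
      have h3 := key _ hcm
      have hcc : ∀ g ∈ E, π (g c) = 1 := fun g hg => by rw [hπc g hg, (hπ1 c).mpr hc, map_one]
      simpa [map_mul, hπc a ha, hπc b hb, (hπ1 c).mpr hc] using h3
    let S : Subgroup (MulAut V) :=
      { carrier := {g | g ∈ E ∧ ∀ w, π (g w) = π w}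
        one_mem' := ⟨E.one_mem, fun w => rfl⟩
        mul_mem' := fun {g h} hg hh => ⟨E.mul_mem hg.1 hh.1, fun w => by
          rw [MulAut.mul_apply, hg.2, hh.2]⟩
        inv_mem' := fun {g} hg => ⟨E.inv_mem hg.1, fun w => by
          conv_rhs => rw [show w = g (g⁻¹ w) by rw [← MulAut.mul_apply, mul_inv_cancel]; rfl, hg.2]⟩ }
    have hzS : z ∈ S := by
      have hle : ⁅E, E⁆ ≤ S := commutator_le.mpr fun a ha b hb => by
        refine ⟨E.mul_mem (E.mul_mem (E.mul_mem ha hb) (E.inv_mem ha)) (E.inv_mem hb), fun w => ?_⟩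
        rw [commutatorElement_def, MulAut.mul_apply, MulAut.mul_apply, MulAut.mul_apply, hab a ha b hb]
        simp only [← MulAut.mul_apply]
        congr 1
        rw [show b * (a * (a⁻¹ * b⁻¹)) = 1 by group, MulAut.one_apply]
      have h1 := hzX.1
      simp only [X, if_neg hcomm] at h1
      exact hle h1.2
    refine hzv ?_
    have h4 := hzS.2 v
    rw [hπc z hzE, hπ] at h4
    -- z fixes w := z v / v, so z ^ j v = v * w ^ j
    have h5 : ∀ j : ℕ, (z ^ j) v = v * (z v / v) ^ j := by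
      intro j
      induction j with
      | zero => simp
      | succ j ih =>
        rw [pow_succ', MulAut.mul_apply, ih, map_mul, map_pow, h4, pow_succ']
        rw [← mul_assoc, mul_div_cancel]
    have h6 := h5 s
    rw [← hzord, pow_orderOf_eq_one, MulAut.one_apply, left_eq_mul, hzord] at h6
    have h7 : z v / v = 1 := orderOf_eq_one_iff.mp
      (Nat.eq_one_of_dvd_coprimes hcopV (orderOf_dvd_of_pow_eq_one h6) (orderOf_dvd_natCard _))
    exact div_eq_one.mp h7
  -- E is abelian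
  have hEab : ∀ a ∈ E, ∀ b ∈ E, a * b = b * a := fun a ha b hb =>
    commutatorElement_eq_one_iff_mul_comm.mp (mem_bot.mp (hcomm ▸ commutator_mem_commutator ha hb))
  let O : Subgroup (MulAut V) :=
    { carrier := {g | g ∈ E ∧ g ^ s = 1}
      one_mem' := ⟨E.one_mem, one_pow s⟩
      mul_mem' := fun {a b} ha hb => ⟨E.mul_mem ha.1 hb.1, by
        rw [(commute' (hEab a ha.1 b hb.1)).mul_pow, ha.2, hb.2, one_mul]⟩
      inv_mem' := fun {a} ha => ⟨E.inv_mem ha.1, by rw [inv_pow, ha.2, inv_one]⟩ }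
  have hTO : T ≤ normalizer (O : Set (MulAut V)) := fun a ha => by
    refine mem_normalizer_iff.mpr fun x => ?_
    show (x ∈ E ∧ x ^ s = 1) ↔ (a * x * a⁻¹ ∈ E ∧ (a * x * a⁻¹) ^ s = 1)
    rw [conj_pow, ← mem_normalizer_iff.mp (hTE ha) x]
    simp [conj_eq_one_iff]
  obtain ⟨y1, hy1T, hy11, z2, hz2, hz2n⟩ : ∃ y ∈ T, y ≠ 1 ∧ ∃ a ∈ O ⊓ centralizer {y}, a ∉ zpowers z := by
    by_contra h
    push Not at h
    have hOz : O ≤ zpowers z := by
      rw [← hgenT O (hE.to_le fun g hg => hg.1) hTO]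
      exact iSup₂_le fun y hy a ha => h y hy.1 hy.2 a ha
    have huniq : ∀ H : Subgroup E, Nat.card H = s → H.map E.subtype = zpowers z := by
      intro H hH
      refine eq_of_le_of_card_ge ?_ (by
        rw [Nat.card_zpowers, hzord, ← Nat.card_congr (equivMapOfInjective H _ E.subtype_injective).toEquiv, hH])
      rintro _ ⟨u, hu, rfl⟩
      refine hOz ⟨u.2, ?_⟩
      show (u : MulAut V) ^ s = 1
      have := orderOf_dvd_natCard H hu
      rw [hH] at this
      have h' := orderOf_dvd_iff_pow_eq_one.mp (show orderOf u ∣ s from this)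
      exact_mod_cast h'
    rcases UniqueInvolution.isCyclic_or_quaternion hE (fun H K hH hK =>
      map_injective E.subtype_injective ((huniq H hH).trans (huniq K hK).symm)) with h' | ⟨hs2, n, hn, ⟨q⟩⟩
    · exact hEc h'
    · have hq : QuaternionGroup.xa (0 : ZMod (2 * 2 ^ n)) * QuaternionGroup.a 1 =
          QuaternionGroup.a 1 * QuaternionGroup.xa 0 :=
        q.symm.injective (by
          rw [map_mul, map_mul]
          exact Subtype.ext (hEab _ (SetLike.coe_mem _) _ (SetLike.coe_mem _)))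
      rw [QuaternionGroup.xa_mul_a, QuaternionGroup.a_mul_xa] at hq
      have h2 : (2 : ZMod (2 * 2 ^ n)) = 0 := by
        have := QuaternionGroup.xa.inj hq
        linear_combination this
      have h3 : ((2 : ℕ) : ZMod (2 * 2 ^ n)) = 0 := by exact_mod_cast h2
      rw [ZMod.natCast_eq_zero_iff] at h3
      have := Nat.le_of_dvd (by norm_num) h3
      have : 2 ≤ 2 ^ n := Nat.le_self_pow (by omega) 2
      omega
  have hz2E : z2 ∈ E := hz2.1.1
  have hz21 : z2 ≠ 1 := fun h => hz2n (h ▸ one_mem _)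
  have hz2ord : orderOf z2 = s := orderOf_eq_prime hz2.1.2 hz21
  have hy1z2 : y1 * z2 = z2 * y1 := (mem_centralizer_singleton_iff.mp hz2.2).symm
  have hy0z2 : y0 * z2 ≠ z2 * y0 := fun h => hz2n (hline y0 hy0T hy01 z z2 hzE hy0z hzord hz2E h hz2ord)
  have hy1z : y1 * z ≠ z * y1 := fun h => hz2n (hline y1 hy1T hy11 z z2 hzE h hzord hz2E hy1z2 hz2ord)
  have hnz2 : ∀ y ∈ T, y * z2 * y⁻¹ ∈ zpowers z2 := fun y hy =>
    hline y1 hy1T hy11 z2 (y * z2 * y⁻¹) hz2E hy1z2 hz2ord ((mem_normalizer_iff.mp (hTE hy) z2).mp hz2E)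
      (by rw [← mul_assoc, ← mul_assoc, hT y1 hy1T y hy, mul_assoc y, hy1z2]
          simp only [mul_assoc]
          rw [show y1 * y⁻¹ = y⁻¹ * y1 from ((commute' (hT y1 hy1T y hy)).inv_right).eq])
      (by rw [← hz2ord]; exact (orderOf_injective (MulAut.conj y).toMonoidHom (MulAut.conj y).injective z2))
  obtain ⟨v, hy1v, hzv1, hsp1⟩ := hspan z hzE hzord y1 hy1T (hnz y1 hy1T) hy1z
  have hv1 : v ≠ 1 := fun h => hzv1 (by rw [h, map_one])
  -- z2 fixes v
  have hz2v : z2 v = v := by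
    obtain ⟨m, hm⟩ := hCV y1 hy1T hy11 v (z2 v) hy1v
      (by rw [← MulAut.mul_apply, hy1z2, MulAut.mul_apply, hy1v]) hv1
    obtain ⟨n, hn⟩ := hCV y1 hy1T hy11 v (y0 v) hy1v
      (by rw [← MulAut.mul_apply, hT y1 hy1T y0 hy0T, MulAut.mul_apply, hy1v]) hv1
    have h1 : (y0 * z2 * y0⁻¹) v = z2 v := by
      have h2 : (z2 * y0) v = (y0 * z2) v := by
        rw [MulAut.mul_apply, MulAut.mul_apply, ← hn, map_zpow, ← hm, map_zpow, ← hn, ← zpow_mul, ← zpow_mul,
          mul_comm]
      have h2' : (y0⁻¹ * z2 * y0) v = z2 v := by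
        rw [mul_assoc, MulAut.mul_apply, h2, ← MulAut.mul_apply, inv_mul_cancel_left]
      have h3 : (y0 * z2 * y0⁻¹) (y0 v) = y0 (z2 v) := by
        simp only [← MulAut.mul_apply]; congr 1; group
      have h4 : ∀ g : MulAut V, g (v ^ n) = (g v) ^ n := fun g => map_zpow g v n
      have h5 : y0⁻¹ v ∈ zpowers v := hCV y1 hy1T hy11 v _ hy1v
        (by rw [← MulAut.mul_apply, ((commute' (hT y1 hy1T y0 hy0T)).inv_right).eq, MulAut.mul_apply,
              hy1v]) hv1
      obtain ⟨k, hk⟩ := h5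
      rw [MulAut.mul_apply, MulAut.mul_apply, ← hk, map_zpow, ← hm, ← zpow_mul, map_zpow, ← hn, ← zpow_mul]
      have h6 : (y0 * y0⁻¹) v = v := by rw [mul_inv_cancel]; rfl
      rw [MulAut.mul_apply, ← hk, map_zpow, ← hn, ← zpow_mul] at h6
      calc v ^ (n * (m * k)) = (v ^ (n * k)) ^ m := by rw [← zpow_mul]; ring_nf
        _ = v ^ m := by rw [h6]
    obtain ⟨j, hj⟩ : ∃ j : ℤ, z2 ^ j = y0 * z2 * y0⁻¹ := hnz2 y0 hy0T
    have hj' : z2 ^ (j - 1) ≠ 1 := by
      intro h
      refine hy0z2 ?_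
      rw [zpow_sub_one, mul_inv_eq_one] at h
      rw [h] at hj
      exact eq_mul_inv_iff_mul_eq.mp hj |>.symm
    have hfix : (z2 ^ (j - 1)) v = v := by
      have h2 : (z2 ^ j) v = z2 v := by rw [hj]; exact h1
      have h2' : z2 ^ (j - 1) = z2⁻¹ * z2 ^ j := by
        rw [zpow_sub_one]; exact ((Commute.refl z2).zpow_left j).inv_right.eq
      rw [h2', MulAut.mul_apply, h2, ← MulAut.mul_apply, inv_mul_cancel, MulAut.one_apply]
    have hgen : z2 ∈ zpowers (z2 ^ (j - 1)) := by
      have hcd : (Nat.card (zpowers (z2 ^ (j - 1)))) = s := by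
        have hd := orderOf_dvd_natCard (zpowers z2) (zpow_mem (mem_zpowers z2) (j - 1))
        rw [Nat.card_zpowers, hz2ord] at hd
        rw [Nat.card_zpowers]
        exact (hs.eq_one_or_self_of_dvd _ hd).resolve_left fun h => hj' (orderOf_eq_one_iff.mp h)
      have : zpowers (z2 ^ (j - 1)) = zpowers z2 := eq_of_le_of_card_ge
        (zpowers_le.mpr (zpow_mem (mem_zpowers z2) _)) (by rw [hcd, Nat.card_zpowers, hz2ord])
      exact this ▸ mem_zpowers z2
    obtain ⟨i, hi⟩ := hgen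
    rw [← hi]
    exact (show z2 ^ (j - 1) ∈ MulAction.stabilizer (MulAut V) v from hfix) |> fun h => zpow_mem h i
  let F2 : Subgroup V :=
    { carrier := {u | z2 u = u}
      one_mem' := map_one z2
      mul_mem' := fun {a b} ha hb => by show z2 (a * b) = a * b; rw [map_mul, ha, hb]
      inv_mem' := fun {a} ha => by show z2 a⁻¹ = a⁻¹; rw [map_inv, ha] }
  have hMF2 : Subgroup.closure {u : V | ∃ g ∈ zpowers z, u = g v} ≤ F2 := by
    refine (closure_le _).mpr ?_
    rintro _ ⟨g, ⟨j, rfl⟩, rfl⟩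
    show z2 ((z ^ j) v) = (z ^ j) v
    rw [← MulAut.mul_apply, ((commute' (hzc z2 hz2E)).zpow_right j).eq, MulAut.mul_apply, hz2v]
  set y := y0 * y1 with hydef
  have hyT : y ∈ T := T.mul_mem hy0T hy1T
  have hyz : y * z ≠ z * y := by
    intro h
    apply hy1z
    have h1 : y0 * (y1 * z) = y0 * (z * y1) := by
      rw [← mul_assoc, h, ← mul_assoc y0, hy0z, mul_assoc]
    exact mul_left_cancel h1
  have hyz2 : y * z2 ≠ z2 * y := by
    intro h
    apply hy0z2
    have h1 : y0 * z2 * y1 = z2 * y0 * y1 := by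
      rw [mul_assoc y0, ← hy1z2, ← mul_assoc, h, mul_assoc]
    exact mul_right_cancel h1
  have hy1' : y ≠ 1 := fun h => hyz (by simp [h])
  obtain ⟨u, hyu, hzu, -⟩ := hspan z hzE hzord y hyT (hnz y hyT) hyz
  obtain ⟨u', hyu', hz2u', -⟩ := hspan z2 hz2E hz2ord y hyT (hnz2 y hyT) hyz2
  have hu'1 : u' ≠ 1 := fun h => hz2u' (by rw [h, map_one])
  have hyF2 : ∀ w ∈ F2, y w ∈ F2 := by
    intro w hw
    show z2 (y w) = y w
    obtain ⟨j, hj⟩ : ∃ j : ℤ, z2 ^ j = y⁻¹ * z2 * y⁻¹⁻¹ := hnz2 y⁻¹ (T.inv_mem hyT)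
    have e : z2 * y = y * z2 ^ j := by rw [hj]; group
    rw [← MulAut.mul_apply, e, MulAut.mul_apply]
    congr 1
    exact (show z2 ∈ MulAction.stabilizer (MulAut V) w from hw) |> fun h => zpow_mem h j
  have hF2C : ∀ w ∈ F2, z w = w := by
    refine hout z hzE hzord y hyT (hnz y hyT) hyz F2 ?_ ?_ hyF2
    · rintro g ⟨j, rfl⟩ w hw
      show z2 ((z ^ j) w) = (z ^ j) w
      rw [← MulAut.mul_apply, ((commute' (hzc z2 hz2E)).zpow_right j).eq, MulAut.mul_apply, hw]
    · intro w hw hyw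
      by_contra hzw
      obtain ⟨m, hm⟩ := hCV y hyT hy1' w u' hyw hyu' (fun h => hzw (by rw [h, map_one]))
      exact hz2u' (by rw [← hm, map_zpow, hw])
  obtain ⟨c, hc, hcm⟩ := hsp1 u
  refine hzu ?_
  have h1 : z (c * u) = c * u := hF2C _ (hMF2 hcm)
  rw [map_mul, hc] at h1
  exact mul_left_cancel h1

end module

end Cfsg.Agent.Lib.FourJoined
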