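import Cfsg.Agent.Lib.FourJoined.Group

/-! An elementary group of order `t ^ 2` with small fixed points on two tiers. -/

set_option autoImplicit false
set_option linter.style.haveILetI false

namespace Cfsg.Agent.Lib.FourJoined

open Subgroup Cfsg.Agent.Lib.Coprime Cfsg.Agent.Lib.FitHeight
open scoped commutatorElement IsMulCommutative Pointwise

variable {G : Type*} [Group G] [Finite G]

theorem isCyclic_of_le {A B : Subgroup G} (h : A ≤ B) [IsCyclic B] : IsCyclic A :=
  isCyclic_of_injective (inclusion h) (inclusion_injective h)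

theorem endgame {r s t : ℕ} [hr : Fact r.Prime] [hs : Fact s.Prime] [ht : Fact t.Prime] (hrs : r ≠ s)
    (hrt : r ≠ t) (hst : s ≠ t) (D E T : Subgroup G) (hD : IsPGroup r D) (hE : IsPGroup s E)
    (hT : ∀ a ∈ T, ∀ b ∈ T, a * b = b * a) (hTexp : ∀ a ∈ T, a ^ t = 1) (hTcard : Nat.card T = t ^ 2)
    (hTD : T ≤ normalizer (D : Set G)) (hTE : T ≤ normalizer (E : Set G))
    (hED : E ≤ normalizer (D : Set G))
    (hDnc : ¬ IsCyclic D) (hEnc : ¬ IsCyclic E) (hE0 : IsCyclic (E ⊓ centralizer (D : Set G) : Subgroup G))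
    (hCD : ∀ y ∈ T, y ≠ 1 → IsCyclic (D ⊓ centralizer {y} : Subgroup G))
    (hCE : ∀ y ∈ T, y ≠ 1 → IsCyclic (E ⊓ centralizer {y} : Subgroup G))
    (hex : t = 2 ∨ s ≠ 2 ∨ ∀ a ∈ E, ∀ b ∈ E, a * b = b * a)
    (htriple : ∀ y ∈ T, y ≠ 1 → ∀ e ∈ E, e ≠ 1 → y * e = e * y → e ∈ centralizer (D : Set G) →
      ∀ d ∈ D, d ≠ 1 → y * d = d * y → False) : False := by
  classical
  haveI := isMulCommutative_frattiniQuot hD
  let V := D ⧸ frattini D
  haveI : Finite (MulAut V) := Finite.of_injective (fun σ : MulAut V => (σ : V → V)) DFunLike.coe_injective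
  let ρ : normalizer (D : Set G) →* MulAut V := frattiniAct D
  have hcopT : ∀ y ∈ T, (orderOf y).Coprime (Nat.card D) := fun y hy => by
    obtain ⟨m, hm⟩ := IsPGroup.iff_card.mp hD
    rw [hm]
    exact (((Nat.coprime_primes ht.out hr.out).mpr hrt.symm).pow_right m).coprime_dvd_left
      (orderOf_dvd_of_pow_eq_one (hTexp y hy))
  have hcopE : ∀ e ∈ E, (orderOf e).Coprime (Nat.card D) := fun e he => by
    obtain ⟨m, hm⟩ := IsPGroup.iff_card.mp hD
    obtain ⟨j, hj⟩ := IsPGroup.iff_orderOf.mp hE ⟨e, he⟩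
    rw [Subgroup.orderOf_mk] at hj
    rw [hm, hj]
    exact ((Nat.coprime_primes hs.out hr.out).mpr hrs.symm).pow _ _
  have hker : ∀ x : normalizer (D : Set G), (orderOf (x : G)).Coprime (Nat.card D) → ρ x = 1 →
      (x : G) ∈ centralizer (D : Set G) := fun x hcop hx =>
    mem_centralizer_of_frattiniAct D x.2 hcop fun y => by
      show ρ x (y : V) = _
      rw [hx]; rfl
  have hinjT : ∀ y (hy : y ∈ T), ρ ⟨y, hTD hy⟩ = 1 → y = 1 := by
    intro y hy hρ
    by_contra hy1
    have hc := hker ⟨y, hTD hy⟩ (hcopT y hy) hρ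
    refine hDnc ?_
    have : D ⊓ centralizer {y} = D := inf_eq_left.mpr fun d hd =>
      mem_centralizer_singleton_iff.mpr (mem_centralizer_iff.mp hc d hd)
    exact this ▸ hCD y hy hy1
  let E' : Subgroup (MulAut V) := (E.subgroupOf (normalizer (D : Set G))).map ρ
  let T' : Subgroup (MulAut V) := (T.subgroupOf (normalizer (D : Set G))).map ρ
  have hE' : IsPGroup s E' := (hE.comap_of_injective _ (subtype_injective _)).map ρ
  have hinj' : Function.Injective (ρ.comp (T.subgroupOf (normalizer (D : Set G))).subtype) := by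
    refine (injective_iff_map_eq_one _).mpr fun x hx => ?_
    exact Subtype.ext (Subtype.ext (hinjT _ (show ((x : normalizer (D : Set G)) : G) ∈ T from x.2) hx))
  have hT'card : Nat.card T' = t ^ 2 := by
    have h1 : T' = (⊤ : Subgroup (T.subgroupOf (normalizer (D : Set G)))).map
        (ρ.comp (T.subgroupOf (normalizer (D : Set G))).subtype) := by
      rw [← MonoidHom.range_eq_map, MonoidHom.range_comp, range_subtype]
    rw [h1, ← Nat.card_congr (equivMapOfInjective _ _ hinj').toEquiv, card_top,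
      Nat.card_congr (subgroupOfEquivOfLe hTD).toEquiv, hTcard]
  have hT'comm : ∀ a ∈ T', ∀ b ∈ T', a * b = b * a := by
    rintro _ ⟨a, ha, rfl⟩ _ ⟨b, hb, rfl⟩
    rw [← map_mul, ← map_mul]
    exact congrArg ρ (Subtype.ext (hT a ha b hb))
  have hT'exp : ∀ a ∈ T', a ^ t = 1 := by
    rintro _ ⟨a, ha, rfl⟩
    rw [← map_pow, show a ^ t = 1 from Subtype.ext (hTexp a ha), map_one]
  have hT'E : T' ≤ normalizer (E' : Set (MulAut V)) := by
    refine le_trans ?_ (le_normalizer_map ρ)
    refine Subgroup.map_mono fun a ha => ?_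
    rw [mem_normalizer_iff]
    exact fun z => mem_normalizer_iff.mp (hTE ha) (z : G)
  have hliftV : ∀ (y : normalizer (D : Set G)), (y : G) ∈ T → ∀ v : V, ρ y v = v →
      ∃ c : D, (y : G) * c = c * y ∧ (c : V) = v := by
    intro y hy v hv
    obtain ⟨w, rfl⟩ := QuotientGroup.mk'_surjective _ v
    obtain ⟨c, hc, hcw⟩ := exists_fixed_lift hD y.2 (hcopT _ hy) hv
    exact ⟨c, hc, hcw⟩
  have hcyc' : IsCyclic E' := by
    refine isCyclic_of_small_fixed (r := r) ht.out hr.out ?_ hrs.symm hst E' T' hE' hT'comm hT'exp hT'card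
      hT'E ?_ ?_
    · exact hD.to_quotient _
    · rintro _ ⟨y, hy, rfl⟩ hy1
      have hyT : (y : G) ∈ T := hy
      have hy1' : (y : G) ≠ 1 := fun h => hy1 (by rw [show y = 1 from Subtype.ext h, map_one])
      haveI := hCE _ hyT hy1'
      let C : Subgroup (normalizer (D : Set G)) :=
        (E ⊓ centralizer {(y : G)}).subgroupOf (normalizer (D : Set G))
      haveI : IsCyclic C := isCyclic_of_surjective
        (subgroupOfEquivOfLe (inf_le_left.trans hED)).symm.toMonoidHom (MulEquiv.surjective _)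
      haveI : IsCyclic (C.map ρ) := isCyclic_of_surjective (ρ.subgroupMap C) (ρ.subgroupMap_surjective C)
      refine isCyclic_of_le (B := C.map ρ) ?_
      rintro _ ⟨⟨e, he, rfl⟩, hec⟩
      replace hec : ρ e * ρ y = ρ y * ρ e := mem_centralizer_singleton_iff.mp hec
      -- lift
      let N0 : Subgroup G := E ⊓ centralizer (D : Set G)
      have hN0p : IsPGroup s N0 := hE.to_le inf_le_left
      haveI := hN0p.isNilpotent
      have hyN0 : (y : G) ∈ normalizer (N0 : Set G) := by
        refine mem_normalizer_of_conj_smul_eq ?_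
        rw [conj_smul_inf, conj_smul_eq_self (hTE hyT),
          conj_smul_eq_self (normalizer_le_normalizer_centralizer D (hTD hyT))]
      have hcopy : (Nat.card (zpowers (y : G))).Coprime (Nat.card N0) :=
        coprime_card_of_isPGroup ht.out hs.out hst.symm
          (fun a => ⟨1, Subtype.ext (by simpa using hTexp a (zpowers_le.mpr hyT a.2))⟩) hN0p
      have hst' : ∀ a ∈ zpowers (y : G), ((e : normalizer (D : Set G)) : G)⁻¹ *
          (a * (e : G) * a⁻¹) ∈ N0 := by
        rintro _ ⟨i, rfl⟩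
        have hyE : ((y : G) ^ i) ∈ normalizer (E : Set G) := zpow_mem (hTE hyT) i
        refine ⟨E.mul_mem (E.inv_mem he) ((mem_normalizer_iff.mp hyE _).mp he), ?_⟩
        have hρ : ρ (e⁻¹ * (y ^ i * e * (y ^ i)⁻¹)) = 1 := by
          rw [map_mul, map_mul, map_mul, map_inv, map_inv, map_zpow]
          have hc : Commute (ρ y) (ρ e) := (hec : ρ e * ρ y = ρ y * ρ e).symm
          rw [(hc.zpow_left i).eq, mul_inv_cancel_right, inv_mul_cancel]
        have := hker (e⁻¹ * (y ^ i * e * (y ^ i)⁻¹)) (hcopE _ (E.mul_mem (E.inv_mem he)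
          (by simpa using (mem_normalizer_iff.mp hyE _).mp he))) hρ
        simpa using this
      obtain ⟨c, hc, hcN⟩ := exists_centralizer_mem_coset (A := zpowers (y : G)) (N := N0)
        (zpowers_le.mpr hyN0) hcopy (Or.inr inferInstance) hst'
      have hcE : c ∈ E := by
        have := E.mul_mem he hcN.1
        simpa using this
      refine ⟨⟨c, hED hcE⟩, ⟨hcE, mem_centralizer_singleton_iff.mpr
        (mem_centralizer_iff.mp hc _ (mem_zpowers _)).symm⟩, ?_⟩
      have hρ : ρ (e⁻¹ * ⟨c, hED hcE⟩) = 1 := MulEquiv.ext fun v => by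
        obtain ⟨w, rfl⟩ := QuotientGroup.mk'_surjective _ v
        show frattiniAct D _ (w : V) = (w : V)
        rw [frattiniAct_mk]
        congr 1
        refine Subtype.ext ?_
        rw [coe_normAct_apply, mul_inv_eq_iff_eq_mul]
        exact (mem_centralizer_iff.mp hcN.2 w w.2).symm
      rw [map_mul, map_inv, inv_mul_eq_one] at hρ
      exact hρ.symm
    · rintro _ ⟨y, hy, rfl⟩ hy1 v w hv hw hv1
      have hyT : (y : G) ∈ T := hy
      have hy1' : (y : G) ≠ 1 := fun h => hy1 (by rw [show y = 1 from Subtype.ext h, map_one])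
      haveI := hCD _ hyT hy1'
      let C : Subgroup D := (centralizer {(y : G)}).subgroupOf D
      haveI : IsCyclic C := isCyclic_of_injective
        ((D.subtype.comp C.subtype).codRestrict (D ⊓ centralizer {(y : G)}) fun x => ⟨x.1.2, x.2⟩)
        (fun a b h => Subtype.ext (Subtype.ext (congrArg Subtype.val h :)))
      haveI : IsCyclic (C.map (QuotientGroup.mk' (frattini D))) :=
        isCyclic_of_surjective _ ((QuotientGroup.mk' (frattini D)).subgroupMap_surjective C)
      have hmem : ∀ u : V, ρ y u = u → u ∈ C.map (QuotientGroup.mk' (frattini D)) := fun u hu => by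
        obtain ⟨c, hc, hcu⟩ := hliftV y hyT u hu
        exact ⟨c, mem_centralizer_singleton_iff.mpr hc.symm, hcu⟩
      rcases eq_or_ne w 1 with rfl | hw1
      · exact one_mem _
      have hord : ∀ u : V, u ≠ 1 → orderOf u = r := fun u hu => orderOf_eq_prime (by
        obtain ⟨x, rfl⟩ := QuotientGroup.mk'_surjective _ u
        rw [← map_pow, QuotientGroup.mk'_apply, QuotientGroup.eq_one_iff]
        exact PGroupFrattini.pow_mem_frattini hD x) hu
      exact mem_zpowers_of_cyclic (C.map (QuotientGroup.mk' (frattini D))) (hmem v hv) (hmem w hw)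
        (by rw [hord v hv1, hord w hw1])
  -- the kernel
  set E0 : Subgroup G := E ⊓ centralizer (D : Set G) with hE0def
  have hE0p : IsPGroup s E0 := hE.to_le inf_le_left
  have hE0ne : E0 ≠ ⊥ := by
    intro h
    apply hEnc
    let φ : E →* E' := ((ρ.comp (inclusion hED)).codRestrict E' fun x => ⟨inclusion hED x, x.2, rfl⟩)
    haveI := hcyc'
    refine isCyclic_of_injective φ ((injective_iff_map_eq_one _).mpr fun x hx => ?_)
    have h1 := hker (inclusion hED x) (hcopE x x.2) (congrArg Subtype.val hx)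
    exact Subtype.ext (mem_bot.mp (h ▸ Subgroup.mem_inf.mpr ⟨x.2, h1⟩))
  have hTE0 : T ≤ normalizer (E0 : Set G) := fun a ha => by
    refine mem_normalizer_of_conj_smul_eq ?_
    rw [hE0def, conj_smul_inf, conj_smul_eq_self (hTE ha),
      conj_smul_eq_self (normalizer_le_normalizer_centralizer D (hTD ha))]
  have hcopT0 : (Nat.card T).Coprime (Nat.card E0) :=
    coprime_card_of_isPGroup ht.out hs.out hst.symm (fun a => ⟨1, Subtype.ext (by simpa using hTexp a a.2)⟩) hE0p
  obtain ⟨y1, hy1T, hy11, hy1E0⟩ : ∃ y ∈ T, y ≠ 1 ∧ E0 ⊓ centralizer {y} ≠ ⊥ := by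
    by_contra h
    push Not at h
    refine hE0ne (eq_bot_iff.mpr ?_)
    rw [← fixGen_eq_of_elementary ht.out hT hTexp hTcard hTE0 hcopT0]
    exact iSup₂_le fun a ha => (h a ha.1 ha.2).le
  obtain ⟨e, he, he1⟩ := (Subgroup.bot_or_exists_ne_one _).resolve_left hy1E0
  have hey : y1 * e = e * y1 := (mem_centralizer_singleton_iff.mp he.2).symm
  haveI := hE0
  have hy1E0c : zpowers y1 ≤ centralizer (E0 : Set G) :=
    le_centralizer_of_cyclic (e := e) hE0p ((zpowers_le.mpr hy1T).trans hTE0)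
      (hcopT0.coprime_dvd_left (card_dvd_of_le (zpowers_le.mpr hy1T))) he.1 he1
      (mem_centralizer_iff.mpr fun z ⟨i, hi⟩ => hi ▸ ((commute' hey).zpow_left i).eq)
  obtain ⟨a, ha, haE⟩ : ∃ a ∈ E, y1 * a * y1⁻¹ * a⁻¹ ∉ E0 := by
    by_contra h
    push Not at h
    have hA : zpowers y1 ≤ normalizer (E : Set G) := (zpowers_le.mpr hy1T).trans hTE
    have hall : ∀ a ∈ E, ∀ i : ℤ, y1 ^ i * a * (y1 ^ i)⁻¹ * a⁻¹ ∈ E0 := by
      intro a ha i
      obtain ⟨n, hn⟩ : ∃ n : ℕ, y1 ^ n = y1 ^ i :=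
        mem_powers_iff_mem_zpowers.mpr (zpow_mem (mem_zpowers y1) i)
      rw [← hn]
      clear hn i
      induction n generalizing a with
      | zero => simp
      | succ n ih =>
        have e2 : y1 ^ (n + 1) * a * (y1 ^ (n + 1))⁻¹ * a⁻¹ =
            (y1 ^ n * (y1 * a * y1⁻¹) * (y1 ^ n)⁻¹ * (y1 * a * y1⁻¹)⁻¹) * (y1 * a * y1⁻¹ * a⁻¹) := by
          rw [pow_succ]; group
        exact e2 ▸ E0.mul_mem (ih _ ((mem_normalizer_iff.mp (hTE hy1T) a).mp ha)) (h a ha)
    have hcop : (Nat.card (zpowers y1)).Coprime (Nat.card E) :=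
      coprime_card_of_isPGroup ht.out hs.out hst.symm
        (fun a => ⟨1, Subtype.ext (by simpa using hTexp a (zpowers_le.mpr hy1T a.2))⟩) hE
    have hle : ⁅E, zpowers y1⁆ ≤ E0 := by
      refine commutator_le.mpr ?_
      rintro a ha _ ⟨i, rfl⟩
      have h2 : ⁅a, y1 ^ i⁆ = (y1 ^ i * a * (y1 ^ i)⁻¹ * a⁻¹)⁻¹ := by
        rw [commutatorElement_def]; group
      rw [h2]
      exact E0.inv_mem (hall a ha i)
    haveI : Group.IsNilpotent E := hE.isNilpotent
    have h3 := commutator_commutator hA hcop (Or.inr inferInstance)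
    have h4 : ⁅E, zpowers y1⁆ = ⊥ := by
      rw [← h3, eq_bot_iff]
      refine (commutator_mono hle le_rfl).trans ?_
      rw [commutator_eq_bot_iff_le_centralizer.mpr (le_centralizer_iff.mp hy1E0c)]
    refine hEnc ?_
    have : E ⊓ centralizer {y1} = E := inf_eq_left.mpr fun a ha => mem_centralizer_singleton_iff.mpr
      (mem_centralizer_iff.mp (commutator_eq_bot_iff_le_centralizer.mp h4 ha) y1 (mem_zpowers y1)).symm
    exact this ▸ hCE y1 hy1T hy11
  by_cases hd : ∀ d ∈ D, y1 * d = d * y1 → d = 1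
  · exact haE ⟨E.mul_mem ((mem_normalizer_iff.mp (hTE hy1T) a).mp ha) (E.inv_mem ha),
      fpf_central (P := D) (R := E) ht.out hs.out hrt hst hrs hD hE hED (hTD hy1T) (hTE hy1T)
        (hTexp y1 hy1T) hd hex ha⟩
  · push Not at hd
    obtain ⟨d, hdD, hdy, hd1⟩ := hd
    exact htriple y1 hy1T hy11 e he.1.1 he1 hey he.1.2 d hdD hd1 hdy

end Cfsg.Agent.Lib.FourJoined
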