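import Cfsg.Agent.Lib.FourJoined.Action
import Cfsg.Agent.Lib.Hall.Basic
import Cfsg.Agent.Lib.Hall.Solvable
import Mathlib.GroupTheory.FixedPointFree
import Mathlib.GroupTheory.SpecificGroups.Cyclic.Basic

/-! Pairs of lines of operators with small fixed points: the group part. -/

set_option autoImplicit false
set_option linter.style.haveILetI false

namespace Cfsg.Agent.Lib.FourJoined

open Subgroup Cfsg.Agent.Lib.Coprime Cfsg.Agent.Lib.FitHeight
open scoped commutatorElement IsMulCommutative Pointwise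

variable {G : Type*} [Group G] [Finite G]

/-- All elements of order `p` of `X` lie in one line. -/
def RankOne (p : ℕ) (X : Subgroup G) : Prop :=
  ∀ x ∈ X, ∀ y ∈ X, orderOf x = p → orderOf y = p → y ∈ zpowers x

theorem coprime_card_of_isPGroup {p q : ℕ} (hp : p.Prime) (hq : q.Prime) (hpq : p ≠ q) {A B : Subgroup G}
    (hA : IsPGroup p A) (hB : IsPGroup q B) : (Nat.card A).Coprime (Nat.card B) := by
  haveI := Fact.mk hp
  haveI := Fact.mk hq
  exact IsPGroup.coprime_card_of_ne p q hpq _ _ hA hB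

theorem isPGroup_zpowers {p : ℕ} (hp : p.Prime) {x : G} (hx : orderOf x = p) : IsPGroup p (zpowers x) := by
  haveI := Fact.mk hp
  exact IsPGroup.of_card (n := 1) (by rw [Nat.card_zpowers, hx, pow_one])

theorem isCyclic_of_rankOne {p : ℕ} [hp : Fact p.Prime] (hp2 : p ≠ 2) {X : Subgroup G} (hX : IsPGroup p X)
    (h : RankOne p X) : IsCyclic X := by
  refine (UniqueInvolution.isCyclic_or_quaternion hX fun H K hH hK => ?_).resolve_right fun h' => hp2 h'.1
  obtain ⟨⟨a, ha⟩, ha'⟩ := exists_prime_orderOf_dvd_card' p (dvd_of_eq hH.symm)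
  obtain ⟨⟨b, hb⟩, hb'⟩ := exists_prime_orderOf_dvd_card' p (dvd_of_eq hK.symm)
  rw [Subgroup.orderOf_mk] at ha' hb'
  have key : ∀ (L : Subgroup X) (c : X), c ∈ L → Nat.card L = p → orderOf c = p → zpowers c = L :=
    fun L c hc hL hcp => eq_of_le_of_card_ge (zpowers_le.mpr hc) (by rw [Nat.card_zpowers, hL, hcp])
  rw [← key H a ha hH ha', ← key K b hb hK hb']
  obtain ⟨i, hi⟩ : ∃ i : ℤ, (a : G) ^ i = b :=
    h a a.2 b b.2 (by rw [Subgroup.orderOf_coe]; exact ha') (by rw [Subgroup.orderOf_coe]; exact hb')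
  refine (key _ b ?_ (by rw [Nat.card_zpowers, ha']) hb').symm
  exact ⟨i, Subtype.ext (by simpa using hi)⟩

theorem exists_sq {p : ℕ} [hp : Fact p.Prime] {P : Subgroup G} (hP : IsPGroup p P) (h : ¬ RankOne p P) :
    ∃ A : Subgroup G, A ≤ P ∧ (∀ a ∈ A, ∀ b ∈ A, a * b = b * a) ∧ (∀ a ∈ A, a ^ p = 1) ∧
      Nat.card A = p ^ 2 := by
  simp only [RankOne, not_forall] at h
  obtain ⟨x, hx, x', hx', hxo, hx'o, hxx⟩ := h
  haveI : Nontrivial P := ⟨⟨x, hx⟩, 1, fun h => hp.out.one_lt.ne (by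
    rw [← hxo, show x = 1 from congrArg Subtype.val h, orderOf_one])⟩
  haveI := hP.center_nontrivial
  obtain ⟨⟨⟨z0, hz0P⟩, hz0c⟩, hz0o⟩ := exists_prime_orderOf_dvd_card' p
    (((hP.to_subgroup (center P)).card_eq_or_dvd).resolve_left (Finite.one_lt_card.ne'))
  rw [Subgroup.orderOf_mk, Subgroup.orderOf_mk] at hz0o
  have hzc : ∀ g ∈ P, g * z0 = z0 * g := fun g hg =>
    congrArg Subtype.val (mem_center_iff.mp hz0c ⟨g, hg⟩)
  obtain ⟨y, hy, hyo, hyz⟩ : ∃ y ∈ P, orderOf y = p ∧ y ∉ zpowers z0 := by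
    by_contra hh
    push Not at hh
    have hzx : zpowers x = zpowers z0 := eq_of_le_of_card_ge (zpowers_le.mpr (hh x hx hxo))
      (by rw [Nat.card_zpowers, Nat.card_zpowers, hxo, hz0o])
    exact hxx (hzx ▸ hh x' hx' hx'o)
  have hcz : Commute y z0 := hzc y hy
  have hnorm : zpowers y ≤ normalizer (zpowers z0 : Set G) := by
    refine zpowers_le.mpr (centralizer_le_normalizer _ (mem_centralizer_iff.mpr ?_))
    rintro _ ⟨i, rfl⟩
    exact ((hcz.zpow_right i).eq).symm
  have hinf : zpowers y ⊓ zpowers z0 = ⊥ := by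
    rw [eq_bot_iff]
    intro g ⟨hg1, hg2⟩
    by_contra hg
    rw [mem_bot] at hg
    have ho : orderOf g = p := by
      have hd := orderOf_dvd_natCard _ hg1
      rw [Nat.card_zpowers, hyo] at hd
      exact (hp.out.eq_one_or_self_of_dvd _ hd).resolve_left fun h => hg (orderOf_eq_one_iff.mp h)
    have e : zpowers g = zpowers y :=
      eq_of_le_of_card_ge (zpowers_le.mpr hg1) (by rw [Nat.card_zpowers, Nat.card_zpowers, ho, hyo])
    exact hyz (zpowers_le.mpr hg2 (e ▸ mem_zpowers y))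
  refine ⟨zpowers y ⊔ zpowers z0, sup_le (zpowers_le.mpr hy) (zpowers_le.mpr hz0P), ?_, ?_, ?_⟩
  · intro a ha b hb
    rw [mem_sup_of_le_normalizer hnorm] at ha hb
    obtain ⟨_, ⟨i, rfl⟩, _, ⟨j, rfl⟩, rfl⟩ := ha
    obtain ⟨_, ⟨k, rfl⟩, _, ⟨l, rfl⟩, rfl⟩ := hb
    exact (((Commute.refl y).zpow_zpow i k).mul_right (hcz.zpow_zpow i l)).mul_left
      ((hcz.symm.zpow_zpow j k).mul_right ((Commute.refl z0).zpow_zpow j l)) |>.eq
  · intro a ha
    rw [mem_sup_of_le_normalizer hnorm] at ha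
    obtain ⟨_, ⟨i, rfl⟩, _, ⟨j, rfl⟩, rfl⟩ := ha
    show (y ^ i * z0 ^ j) ^ p = 1
    rw [(hcz.zpow_zpow i j).mul_pow, ← zpow_natCast (y ^ i), ← zpow_mul, mul_comm, zpow_mul, zpow_natCast,
      ← zpow_natCast (z0 ^ j), ← zpow_mul, mul_comm j, zpow_mul, zpow_natCast, ← hyo, pow_orderOf_eq_one,
      hyo, ← hz0o, pow_orderOf_eq_one, one_zpow, one_zpow, one_mul]
  · have := card_sup_mul_card_inf_of_le_normalizer hnorm
    rw [hinf, Subgroup.card_bot, mul_one] at this
    rw [this, Nat.card_zpowers, Nat.card_zpowers, hyo, hz0o, pow_two]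

/-- A fixed class of the Frattini quotient contains a fixed element. -/
theorem exists_fixed_lift {r : ℕ} [Fact r.Prime] {P : Subgroup G} (hP : IsPGroup r P) {x : G}
    (hx : x ∈ normalizer (P : Set G)) (hcop : (orderOf x).Coprime (Nat.card P)) {y : P}
    (h : frattiniAct P ⟨x, hx⟩ (y : P ⧸ frattini P) = y) :
    ∃ c : P, x * (c : G) = c * x ∧ (c : P ⧸ frattini P) = y := by
  let F : Subgroup G := (frattini P).map P.subtype
  have hFP : F ≤ P := map_subtype_le _
  have hFp : IsPGroup r F := hP.to_le hFP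
  haveI := hFp.isNilpotent
  have hst : ∀ a ∈ zpowers x, (y : G)⁻¹ * (a * y * a⁻¹) ∈ F := by
    rintro a ⟨i, rfl⟩
    have hmem : frattiniAct P ⟨x, hx⟩ ∈ MulAction.stabilizer (MulAut (P ⧸ frattini P))
        (y : P ⧸ frattini P) := h
    have h1 : ((frattiniAct P ⟨x, hx⟩) ^ i) (y : P ⧸ frattini P) = (y : P ⧸ frattini P) := zpow_mem hmem i
    rw [← map_zpow, frattiniAct_mk, eq_comm, QuotientGroup.eq] at h1
    refine ⟨_, h1, ?_⟩
    simp only [Subgroup.coe_subtype, Subgroup.coe_mul, Subgroup.coe_inv, coe_normAct_apply, Subgroup.coe_zpow]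
  obtain ⟨c, hc, hcF⟩ := exists_centralizer_mem_coset (A := zpowers x) (N := F)
    (zpowers_le.mpr (le_normalizer_map_frattini P hx))
    (by rw [Nat.card_zpowers]; exact hcop.coprime_dvd_right (card_dvd_of_le hFP))
    (Or.inr inferInstance) hst
  have hcP : c ∈ P := by
    have := P.mul_mem y.2 (hFP hcF)
    simpa using this
  refine ⟨⟨c, hcP⟩, mem_centralizer_iff.mp hc x (mem_zpowers x), ?_⟩
  rw [eq_comm, QuotientGroup.eq]
  obtain ⟨f, hf, he⟩ := hcF
  have : f = y⁻¹ * ⟨c, hcP⟩ := Subtype.ext (by simpa using he)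
  exact this ▸ hf

theorem isMulCommutative_frattiniQuot {r : ℕ} [Fact r.Prime] {P : Subgroup G} (hP : IsPGroup r P) :
    IsMulCommutative (P ⧸ frattini P) :=
  (Normal.quotient_commutative_iff_commutator_le (N := frattini P)).mpr
    (PGroupFrattini.commutator_le_frattini hP)

/-- An operator of prime order without fixed points on `P` centralises, modulo the centraliser of `P`,
the groups of coprime order that it normalises. -/
theorem fpf_central {p l s : ℕ} (hp : p.Prime) [Fact l.Prime] (hs : s.Prime) (hlp : l ≠ p) (hsp : s ≠ p)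
    (hls : l ≠ s) {P R : Subgroup G} (hP : IsPGroup l P) (hR : IsPGroup s R)
    (hRP : R ≤ normalizer (P : Set G)) {u : G} (huP : u ∈ normalizer (P : Set G))
    (huR : u ∈ normalizer (R : Set G)) (hu : u ^ p = 1) (hfix : ∀ y ∈ P, u * y = y * u → y = 1)
    (hex : p = 2 ∨ s ≠ 2 ∨ ∀ a ∈ R, ∀ b ∈ R, a * b = b * a) {x : G} (hx : x ∈ R) :
    u * x * u⁻¹ * x⁻¹ ∈ centralizer (P : Set G) := by
  rcases eq_or_ne p 2 with rfl | hp2
  · let φ : P → P := fun y => ⟨u * y * u⁻¹, (mem_normalizer_iff.mp huP _).mp y.2⟩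
    have h2 : u * u = 1 := by rw [← pow_two, hu]
    have huinv : u⁻¹ = u := inv_eq_of_mul_eq_one_right h2
    have hinv : φ = (·⁻¹) := by
      let φ' : P ≃* P := normAct P ⟨u, huP⟩
      have := MonoidHom.FixedPointFree.coe_eq_inv_of_involutive (φ := φ') (fun y hy => Subtype.ext
        (hfix y y.2 (mul_inv_eq_iff_eq_mul.mp (congrArg Subtype.val hy))))
        (fun y => Subtype.ext (by
          show u * (u * (y : G) * u⁻¹) * u⁻¹ = y
          rw [huinv, ← mul_assoc, ← mul_assoc, h2, one_mul, mul_assoc, h2, mul_one]))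
      exact this
    have hu' : ∀ y ∈ P, u * y * u⁻¹ = y⁻¹ := fun y hy => congrArg Subtype.val (congrFun hinv ⟨y, hy⟩)
    refine mem_centralizer_iff.mpr fun y hy => ?_
    have h1 : x * y * x⁻¹ ∈ P := (mem_normalizer_iff.mp (hRP hx) y).mp hy
    have h1' : x⁻¹ * y * x ∈ P := by
      simpa using (mem_normalizer_iff.mp ((normalizer (P : Set G)).inv_mem (hRP hx)) y).mp hy
    have e : (u * x * u⁻¹ * x⁻¹) * y * (u * x * u⁻¹ * x⁻¹)⁻¹ = y := by
      calc (u * x * u⁻¹ * x⁻¹) * y * (u * x * u⁻¹ * x⁻¹)⁻¹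
          = u * (x * (u⁻¹ * (x⁻¹ * y * x) * u) * x⁻¹) * u⁻¹ := by group
        _ = u * (x * (u * (x⁻¹ * y * x) * u⁻¹) * x⁻¹) * u⁻¹ := by simp [huinv]
        _ = u * y⁻¹ * u⁻¹ := by rw [hu' _ h1']; group
        _ = y := by rw [hu' _ (P.inv_mem hy), inv_inv]
    exact (mul_inv_eq_iff_eq_mul.mp e).symm
  · haveI := isMulCommutative_frattiniQuot hP
    let act : MulDistribMulAction (normalizer (P : Set G)) (P ⧸ frattini P) :=
      MulDistribMulAction.compHom _ (frattiniAct P)
    have hex' : NotException p s ∨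
        ∀ a ∈ R.subgroupOf (normalizer (P : Set G)), ∀ b ∈ R.subgroupOf (normalizer (P : Set G)),
          a * b = b * a := by
      rcases hex with h | h | h
      · exact absurd h hp2
      · exact Or.inl (Or.inl h)
      · exact Or.inr fun a ha b hb => Subtype.ext (h a ha b hb)
    have hVl : ∀ v : P ⧸ frattini P, v ^ l = 1 := fun v => by
      obtain ⟨w, rfl⟩ := QuotientGroup.mk'_surjective _ v
      rw [← map_pow, QuotientGroup.mk'_apply, QuotientGroup.eq_one_iff]
      exact PGroupFrattini.pow_mem_frattini hP w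
    have key : ∀ v : P ⧸ frattini P, ∀ g : R.subgroupOf (normalizer (P : Set G)),
        (⟨u, huP⟩ : normalizer (P : Set G)) • (g : normalizer (P : Set G)) • v =
          (g : normalizer (P : Set G)) • (⟨u, huP⟩ : normalizer (P : Set G)) • v := fun v g => by
      refine commute_of_fpf_qgroup (V := P ⧸ frattini P) (Q := R.subgroupOf _) (f := ⟨u, huP⟩)
        (Fact.out : l.Prime) hp hs hsp hlp hls hex' (hR.comap_of_injective _ (subtype_injective _)) ?_
        (Subtype.ext hu) hVl ?_ g g.2 v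
      · rw [mem_normalizer_iff]; exact fun z => mem_normalizer_iff.mp huR (z : G)
      · intro v hv
        obtain ⟨w, rfl⟩ := QuotientGroup.mk'_surjective _ v
        have hcop : (orderOf u).Coprime (Nat.card P) := by
          obtain ⟨m, hm⟩ := IsPGroup.iff_card.mp hP
          rw [hm]
          exact (((Nat.coprime_primes hp (Fact.out : l.Prime)).mpr hlp.symm).pow_right m).coprime_dvd_left
            (orderOf_dvd_of_pow_eq_one hu)
        obtain ⟨c, hc, hcw⟩ := exists_fixed_lift hP huP hcop hv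
        rw [QuotientGroup.mk'_apply, ← hcw]
        have : c = 1 := Subtype.ext (hfix c c.2 hc)
        rw [this, QuotientGroup.mk_one]
    have hxN : x ∈ normalizer (P : Set G) := hRP hx
    have hcN : u * x * u⁻¹ * x⁻¹ ∈ normalizer (P : Set G) :=
      mul_mem (mul_mem (mul_mem huP hxN) (inv_mem huP)) (inv_mem hxN)
    refine mem_centralizer_of_frattiniAct P hcN ?_ fun y => ?_
    · obtain ⟨m, hm⟩ := IsPGroup.iff_card.mp hP
      haveI := Fact.mk hs
      obtain ⟨j, hj⟩ := IsPGroup.iff_orderOf.mp hR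
        ⟨_, R.mul_mem ((mem_normalizer_iff.mp huR x).mp hx) (R.inv_mem hx)⟩
      rw [Subgroup.orderOf_mk] at hj
      rw [hm, hj]
      exact ((Nat.coprime_primes hs (Fact.out : l.Prime)).mpr hls.symm).pow _ _
    · have := key ((⟨u, huP⟩ : normalizer (P : Set G))⁻¹ • (⟨x, hxN⟩ : normalizer (P : Set G))⁻¹ •
        (y : P ⧸ frattini P)) ⟨⟨x, hxN⟩, hx⟩
      simp only [smul_inv_smul] at this
      show (⟨_, hcN⟩ : normalizer (P : Set G)) • (y : P ⧸ frattini P) = y
      rw [show (⟨_, hcN⟩ : normalizer (P : Set G)) = ⟨u, huP⟩ * ⟨x, hxN⟩ * ⟨u, huP⟩⁻¹ * ⟨x, hxN⟩⁻¹ from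
        Subtype.ext rfl, mul_smul, mul_smul, mul_smul, this]

theorem mulAut_comm {C : Type*} [Group C] [IsCyclic C] (σ τ : MulAut C) : σ * τ = τ * σ := by
  obtain ⟨m, hm⟩ := MonoidHom.map_cyclic σ.toMonoidHom
  obtain ⟨n, hn⟩ := MonoidHom.map_cyclic τ.toMonoidHom
  refine MulEquiv.ext fun x => ?_
  show σ.toMonoidHom (τ.toMonoidHom x) = τ.toMonoidHom (σ.toMonoidHom x)
  rw [hn, hm, hm, hn, ← zpow_mul, ← zpow_mul, mul_comm]

/-- A solvable group of order divisible by three primes has commuting elements of two of these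
orders. -/
theorem exists_commute_of_three {H : Type*} [Group H] [Finite H] [Group.IsSolvable H] {q r s : ℕ}
    (hq : q.Prime) (hr : r.Prime) (hs : s.Prime) (hqr : q ≠ r) (hqs : q ≠ s) (hrs : r ≠ s)
    (hqH : q ∣ Nat.card H) (hrH : r ∣ Nat.card H) (hsH : s ∣ Nat.card H) :
    ∃ x y : H, x * y = y * x ∧ ((orderOf x = q ∧ orderOf y = r) ∨ (orderOf x = q ∧ orderOf y = s) ∨
      (orderOf x = r ∧ orderOf y = s)) := by
  haveI := Fact.mk hq
  haveI := Fact.mk hr
  haveI := Fact.mk hs
  obtain ⟨K, hKπ, hKi⟩ := Hall.exists_piHall (G := H) {q, r, s}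
  have hdK : ∀ l : ℕ, l.Prime → (l = q ∨ l = r ∨ l = s) → l ∣ Nat.card H → l ∣ Nat.card K := by
    intro l hl hlm hlH
    rw [← card_mul_index K] at hlH
    exact (hl.dvd_mul.mp hlH).resolve_right (hKi l hl (by rcases hlm with h | h | h <;> simp [h]))
  have hqK := hdK q hq (Or.inl rfl) hqH
  have hrK := hdK r hr (Or.inr (Or.inl rfl)) hrH
  have hsK := hdK s hs (Or.inr (Or.inr rfl)) hsH
  haveI : Nontrivial K := Finite.one_lt_card_iff_nontrivial.mp
    (hq.one_lt.trans_le (Nat.le_of_dvd Nat.card_pos hqK))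
  obtain ⟨N, l, hNn, hN, hl, hNl, hNc, hNmin⟩ := Hall.exists_normal_pgroup (G := K)
  haveI := Fact.mk hl
  haveI := hNn
  haveI : Nontrivial N := (nontrivial_iff_ne_bot N).mpr hN
  have hlN : l ∣ Nat.card N := hNl.card_eq_or_dvd.resolve_left Finite.one_lt_card.ne'
  have hlm := hKπ l hl (hlN.trans (card_subgroup_dvd_card N))
  obtain ⟨-, e, he, hexp⟩ := Hall.minimal_normal_solvable N hN hNmin
  have hel : e = l := by
    obtain ⟨⟨w, hw⟩, hwo⟩ := exists_prime_orderOf_dvd_card' l hlN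
    rw [Subgroup.orderOf_mk] at hwo
    have h := orderOf_dvd_of_pow_eq_one (hexp w hw)
    rw [hwo] at h
    exact ((Nat.prime_dvd_prime_iff_eq hl he).mp h).symm
  rw [hel] at hexp
  -- some elementary normal subgroup meets one of the other two primes
  suffices key : ∀ a b : ℕ, a.Prime → b.Prime → l ≠ a → l ≠ b → a ≠ b → a ∣ Nat.card K → b ∣ Nat.card K →
      ∃ x y : K, x * y = y * x ∧ ((orderOf x = l ∧ orderOf y = a) ∨ (orderOf x = l ∧ orderOf y = b) ∨
        (orderOf x = a ∧ orderOf y = b)) by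
    rcases hlm with h | h | h
    · subst h
      obtain ⟨x, y, hxy, h⟩ := key r s hr hs hqr hqs hrs hrK hsK
      exact ⟨x, y, congrArg Subtype.val hxy, by simpa [Subgroup.orderOf_coe] using h⟩
    · subst h
      obtain ⟨x, y, hxy, h⟩ := key q s hq hs hqr.symm hrs hqs hqK hsK
      rcases h with h | h | h
      · exact ⟨y, x, (congrArg Subtype.val hxy).symm, Or.inl (by simpa [Subgroup.orderOf_coe] using h.symm)⟩
      · exact ⟨x, y, congrArg Subtype.val hxy, Or.inr (Or.inr (by simpa [Subgroup.orderOf_coe] using h))⟩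
      · exact ⟨x, y, congrArg Subtype.val hxy, Or.inr (Or.inl (by simpa [Subgroup.orderOf_coe] using h))⟩
    · simp only [Set.mem_singleton_iff] at h
      subst h
      obtain ⟨x, y, hxy, h⟩ := key q r hq hr hqs.symm hrs.symm hqr hqK hrK
      rcases h with h | h | h
      · exact ⟨y, x, (congrArg Subtype.val hxy).symm, Or.inr (Or.inl (by simpa [Subgroup.orderOf_coe] using h.symm))⟩
      · exact ⟨y, x, (congrArg Subtype.val hxy).symm, Or.inr (Or.inr (by simpa [Subgroup.orderOf_coe] using h.symm))⟩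
      · exact ⟨x, y, congrArg Subtype.val hxy, Or.inl (by simpa [Subgroup.orderOf_coe] using h)⟩
  intro a b ha hb hla hlb hab haK hbK
  haveI := Fact.mk ha
  haveI := Fact.mk hb
  by_contra hno
  push Not at hno
  obtain ⟨M, hMπ, hMi⟩ := Hall.exists_piHall (G := K) {a, b}
  have haM : a ∣ Nat.card M := by
    rw [← card_mul_index M] at haK
    exact (ha.dvd_mul.mp haK).resolve_right (hMi a ha (by simp))
  have hbM : b ∣ Nat.card M := by
    rw [← card_mul_index M] at hbK
    exact (hb.dvd_mul.mp hbK).resolve_right (hMi b hb (by simp))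
  haveI : Nontrivial M := Finite.one_lt_card_iff_nontrivial.mp
    (ha.one_lt.trans_le (Nat.le_of_dvd Nat.card_pos haM))
  obtain ⟨X, c, hXn, hX, hc, hXc, hXcomm, -⟩ := Hall.exists_normal_pgroup (G := M)
  haveI := Fact.mk hc
  haveI := hXn
  haveI : Nontrivial X := (nontrivial_iff_ne_bot X).mpr hX
  have hcX : c ∣ Nat.card X := hXc.card_eq_or_dvd.resolve_left Finite.one_lt_card.ne'
  have hcab := hMπ c hc (hcX.trans (card_subgroup_dvd_card X))
  obtain ⟨d, hd, hdc, hdM⟩ : ∃ d, d.Prime ∧ d ≠ c ∧ d ∣ Nat.card M ∧ (d = a ∨ d = b) := by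
    rcases hcab with h | h
    · exact ⟨b, hb, fun h' => hab (h ▸ h'.symm), hbM, Or.inr rfl⟩
    · exact ⟨a, ha, fun h' => hab (h'.trans h), haM, Or.inl rfl⟩
  haveI := Fact.mk hd
  obtain ⟨y, hy⟩ := exists_prime_orderOf_dvd_card' d hdM.1
  -- `y` has no fixed points on the module
  have hlc : l ≠ c := by
    rcases hcab with h | h
    · exact fun h' => hla (h'.trans h)
    · exact fun h' => hlb (h'.trans h)
  have hld : l ≠ d := by
    rcases hdM.2 with h | h
    · exact fun h' => hla (h'.trans h)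
    · exact fun h' => hlb (h'.trans h)
  have hyK : orderOf (y : K) = d := by rw [Subgroup.orderOf_coe]; exact hy
  have hNfix : ∀ g : K, ∀ e, (e = a ∨ e = b) → orderOf g = e → ∀ n ∈ N, g * n = n * g → n = 1 := by
    intro g e he hge n hn hgn
    by_contra hn1
    have hno' := hno n g hgn.symm
    have hno1 : orderOf n = l := orderOf_eq_prime (hexp n hn) hn1
    rcases he with rfl | rfl
    · exact hno'.1 hno1 hge
    · exact hno'.2.1 hno1 hge
  have hXfix : ∀ v ∈ X.map M.subtype, (y : K) * v = v * y → v = 1 := by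
    rintro _ ⟨v, hv, rfl⟩ hvy
    by_contra hv1
    change (v : K) ≠ 1 at hv1
    obtain ⟨k, hk⟩ := IsPGroup.iff_orderOf.mp hXc ⟨v, hv⟩
    rw [Subgroup.orderOf_mk] at hk
    have hk0 : k ≠ 0 := fun h0 => hv1 (by
      rw [orderOf_eq_one_iff.mp (show orderOf v = 1 by rw [hk, h0, pow_zero])]; rfl)
    have hw : orderOf ((v : K) ^ (c ^ (k - 1))) = c := by
      have h := orderOf_pow_of_dvd (x := (v : K)) (n := c ^ (k - 1)) (pow_ne_zero _ hc.ne_zero)
        (by rw [Subgroup.orderOf_coe, hk]; exact pow_dvd_pow c (Nat.sub_le k 1))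
      rw [h, Subgroup.orderOf_coe, hk, Nat.pow_div (Nat.sub_le k 1) hc.pos,
        show k - (k - 1) = 1 by omega, pow_one]
    have hcom : (v : K) ^ (c ^ (k - 1)) * y = y * (v : K) ^ (c ^ (k - 1)) :=
      ((commute' hvy).symm.pow_left _).eq
    rcases hcab with h | h <;> rcases hdM.2 with h' | h'
    · exact hdc (h'.trans h.symm)
    · exact (hno _ _ hcom).2.2 (hw.trans h) (hyK.trans h')
    · exact (hno _ _ hcom.symm).2.2 (hyK.trans h') (hw.trans h)
    · exact hdc (h'.trans h.symm)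
  -- so `X` centralises `N` modulo nothing
  obtain ⟨v, hv, hv1⟩ := (Subgroup.bot_or_exists_ne_one X).resolve_left hX
  have hXK : IsPGroup c (X.map M.subtype) := hXc.map _
  have hyXn : (y : K) ∈ normalizer ((X.map M.subtype : Subgroup K) : Set K) :=
    le_normalizer_map M.subtype (mem_map_of_mem _ (by rw [normalizer_eq_top]; exact mem_top y))
  have hcent := fpf_central (P := N) (R := X.map M.subtype) hd hc hld hdc.symm hlc hNl hXK
    le_normalizer_of_normal (le_normalizer_of_normal (mem_top _)) hyXn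
    (show (y : K) ^ d = 1 by rw [← hyK, pow_orderOf_eq_one])
    (fun n hn => hNfix y d hdM.2 hyK n hn)
    (Or.inr (Or.inr (by
      rintro _ ⟨g, hg, rfl⟩ _ ⟨g', hg', rfl⟩
      rw [← map_mul, ← map_mul]
      exact congrArg _ (congrArg Subtype.val (mul_comm (⟨g, hg⟩ : X) ⟨g', hg'⟩)))))
    (x := (v : K)) ⟨v, hv, rfl⟩
  have hcX' : (y : K) * v * (y : K)⁻¹ * (v : K)⁻¹ ∈ X.map M.subtype :=
    mul_mem ((mem_normalizer_iff.mp hyXn _).mp ⟨v, hv, rfl⟩) (inv_mem ⟨v, hv, rfl⟩)
  have htriv : ∀ g ∈ X.map M.subtype, g ∈ centralizer (N : Set K) → g = 1 := by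
    rintro _ ⟨g, hg, rfl⟩ hgc
    by_contra hg1
    obtain ⟨k, hk⟩ := IsPGroup.iff_orderOf.mp hXc ⟨g, hg⟩
    rw [Subgroup.orderOf_mk] at hk
    have hg1' : g ≠ 1 := fun h => hg1 (by rw [h, map_one])
    have hk0 : k ≠ 0 := fun h0 => hg1' (orderOf_eq_one_iff.mp (by rw [hk, h0, pow_zero]))
    have hw : orderOf ((g : K) ^ (c ^ (k - 1))) = c := by
      have h := orderOf_pow_of_dvd (x := (g : K)) (n := c ^ (k - 1)) (pow_ne_zero _ hc.ne_zero)
        (by rw [Subgroup.orderOf_coe, hk]; exact pow_dvd_pow c (Nat.sub_le k 1))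
      rw [h, Subgroup.orderOf_coe, hk, Nat.pow_div (Nat.sub_le k 1) hc.pos,
        show k - (k - 1) = 1 by omega, pow_one]
    obtain ⟨n, hn, hn1⟩ := (Subgroup.bot_or_exists_ne_one N).resolve_left hN
    exact hn1 (hNfix _ c hcab hw n hn (((commute' (mem_centralizer_iff.mp hgc n hn)).pow_right _).eq.symm))
  have h1 := htriv _ hcX' hcent
  exact hv1 (Subtype.ext (hXfix v ⟨v, hv, rfl⟩ (mul_inv_eq_iff_eq_mul.mp (mul_inv_eq_one.mp h1))))

/-- An operator of prime order centralises a cyclic `l`-group it normalises if it does not divide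
`l - 1`. -/
theorem commute_of_cyclic {l s : ℕ} [Fact l.Prime] (hs : s.Prime) (hsl : s ≠ l) (hnd : ¬ s ∣ l - 1)
    {C : Subgroup G} (hC : IsPGroup l C) [IsCyclic C] {a : G} (ha : a ^ s = 1)
    (haC : a ∈ normalizer (C : Set G)) : a ∈ centralizer (C : Set G) := by
  haveI : Finite (MulAut C) := Finite.of_injective (fun σ : MulAut C => (σ : C → C)) DFunLike.coe_injective
  have hσ : normAct C ⟨a, haC⟩ = 1 := by
    have h1 : (normAct C ⟨a, haC⟩) ^ s = 1 := by
      rw [← map_pow]
      exact (congrArg _ (Subtype.ext ha : (⟨a, haC⟩ : normalizer (C : Set G)) ^ s = 1)).trans (map_one _)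
    rcases hs.eq_one_or_self_of_dvd _ (orderOf_dvd_of_pow_eq_one h1) with h | h
    · exact orderOf_eq_one_iff.mp h
    · exfalso
      have hd : s ∣ Nat.card (MulAut C) := h ▸ orderOf_dvd_natCard _
      rw [IsCyclic.card_mulAut] at hd
      obtain ⟨m, hm⟩ := IsPGroup.iff_card.mp hC
      rcases Nat.eq_zero_or_pos m with h0 | h0
      · rw [hm, h0, pow_zero, Nat.totient_one] at hd
        exact hs.one_lt.ne' (Nat.dvd_one.mp hd)
      · rw [hm, Nat.totient_prime_pow (Fact.out : l.Prime) h0] at hd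
        rcases hs.dvd_mul.mp hd with h' | h'
        · exact hsl ((Nat.prime_dvd_prime_iff_eq hs Fact.out).mp (hs.dvd_of_dvd_pow h'))
        · exact hnd h'
  refine mem_centralizer_iff.mpr fun c hc => ?_
  have := congrArg Subtype.val (DFunLike.congr_fun hσ ⟨c, hc⟩)
  exact ((mul_inv_eq_iff_eq_mul.mp this).symm)

/-- In a solvable group with all `O_l` cyclic, an elementary group of order `s ^ 2` cannot centralise
all `O_l`, `l ≠ s`. -/
theorem false_of_all_cyclic {L : Type*} [Group L] [Finite L] [Group.IsSolvable L] {s : ℕ} [hs : Fact s.Prime]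
    (hcyc : ∀ l : ℕ, l.Prime → IsCyclic (Cfsg.pCore l L)) (A : Subgroup L) (hexp : ∀ a ∈ A, a ^ s = 1)
    (hA : Nat.card A = s ^ 2)
    (hcent : ∀ l : ℕ, l.Prime → l ≠ s → A ≤ centralizer (Cfsg.pCore l L : Set L)) : False := by
  set S0 := Cfsg.pCore s L with hS0
  have hAp : IsPGroup s A := fun a => ⟨1, Subtype.ext (by simpa using hexp a a.2)⟩
  have hquot : (Cfsg.fittingSubgroup L).map (QuotientGroup.mk' S0) ≤ Cfsg.pPrimeCore s (L ⧸ S0) := by
    rw [Hall.fittingSubgroup_eq_iSup_pCore, Subgroup.map_iSup, iSup_le_iff]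
    intro l
    haveI := Fact.mk l.2
    rcases eq_or_ne (l : ℕ) s with h | h
    · refine le_of_eq_of_le ((Subgroup.map_eq_bot_iff _).mpr ?_) bot_le
      rw [QuotientGroup.ker_mk', h]
    · haveI : ((Cfsg.pCore (l : ℕ) L).map (QuotientGroup.mk' S0)).Normal :=
        Subgroup.Normal.map inferInstance _ (QuotientGroup.mk'_surjective _)
      refine Hall.le_pPrimeCore ?_
      obtain ⟨m, hm⟩ := IsPGroup.iff_card.mp ((Hall.isPGroup_pCore (G := L) (l : ℕ)).map (QuotientGroup.mk' S0))
      rw [hm]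
      exact ((Nat.coprime_primes l.2 hs.out).mpr h).pow_left m
  have hconj : ∀ g : L, ∀ a ∈ A, g * a * g⁻¹ ∈ A ⊔ S0 := by
    intro g a ha
    set a' := g * a * g⁻¹
    set c := a' * a⁻¹ with hc
    have hcomm : c ∈ centralizer (Cfsg.fittingSubgroup L : Set L) := by
      have hle : Cfsg.fittingSubgroup L ≤ centralizer ({c} : Set L) := by
        rw [Hall.fittingSubgroup_eq_iSup_pCore, iSup_le_iff]
        intro l x hx
        haveI : Fact (l : ℕ).Prime := Fact.mk l.2
        haveI := hcyc l l.2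
        -- conjugation by g commutes with conjugation by a on the cyclic group
        haveI hCn : (Cfsg.pCore (l : ℕ) L).Normal := inferInstance
        let α : L →* MulAut (Cfsg.pCore (l : ℕ) L) := MulAut.conjNormal
        have hab : α c = 1 := by
          rw [hc, map_mul, map_mul, map_mul, map_inv, map_inv,
            mulAut_comm (α g) (α a), mul_inv_cancel_right, mul_inv_cancel]
        have := congrArg Subtype.val (DFunLike.congr_fun hab ⟨x, hx⟩)
        rw [MulAut.conjNormal_apply] at this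
        exact mem_centralizer_singleton_iff.mpr (mul_inv_eq_iff_eq_mul.mp this).symm
      exact mem_centralizer_iff.mpr fun x hx => mem_centralizer_singleton_iff.mp (hle hx)
    have hcF : c ∈ Cfsg.fittingSubgroup L := Hall.centralizer_fittingSubgroup_le hcomm
    have hca : Commute (QuotientGroup.mk' S0 c) (QuotientGroup.mk' S0 a) := by
      have hle : Cfsg.fittingSubgroup L ≤
          (centralizer {QuotientGroup.mk' S0 a}).comap (QuotientGroup.mk' S0) := by
        rw [Hall.fittingSubgroup_eq_iSup_pCore, iSup_le_iff]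
        intro l x hx
        rw [mem_comap, mem_centralizer_singleton_iff]
        rcases eq_or_ne (l : ℕ) s with h | h
        · have : QuotientGroup.mk' S0 x = 1 := (QuotientGroup.eq_one_iff x).mpr (by rw [hS0, ← h]; exact hx)
          rw [this, one_mul, mul_one]
        · rw [← map_mul, ← map_mul, mem_centralizer_iff.mp (hcent l l.2 h ha) x hx]
      exact mem_centralizer_singleton_iff.mp (hle hcF)
    have hcs : QuotientGroup.mk' S0 c ^ s = 1 := by
      have h1 : (QuotientGroup.mk' S0 c * QuotientGroup.mk' S0 a) ^ s = 1 := by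
        rw [← map_mul, ← map_pow, hc, inv_mul_cancel_right, conj_pow, hexp a ha, mul_one, mul_inv_cancel,
          map_one]
      rwa [hca.mul_pow, ← map_pow _ a, hexp a ha, map_one, mul_one] at h1
    have hc1 : QuotientGroup.mk' S0 c = 1 := orderOf_eq_one_iff.mp
      (Nat.eq_one_of_dvd_coprimes (Hall.coprime_card_pPrimeCore (G := L ⧸ S0) s)
        (orderOf_dvd_natCard _ (hquot (mem_map_of_mem _ hcF))) (orderOf_dvd_of_pow_eq_one hcs))
    have hcS : c ∈ S0 := (QuotientGroup.eq_one_iff c).mp hc1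
    have : c * a ∈ A ⊔ S0 := mul_mem (mem_sup_right hcS) (mem_sup_left ha)
    rwa [hc, inv_mul_cancel_right] at this
  haveI : (A ⊔ S0).Normal := ⟨fun x hx g => by
    have hle : A ⊔ S0 ≤ (A ⊔ S0).comap (MulAut.conj g).toMonoidHom :=
      sup_le (fun a ha => hconj g a ha) fun y hy =>
        mem_sup_right ((inferInstance : S0.Normal).conj_mem y hy g)
    exact hle hx⟩
  have hle : A ⊔ S0 ≤ S0 := Hall.le_pCore (Hall.isPGroup_sup_of_normal hAp (Hall.isPGroup_pCore s))
  haveI := hcyc s hs.out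
  haveI : IsCyclic A := isCyclic_of_injective (inclusion (le_sup_left.trans hle)) (inclusion_injective _)
  obtain ⟨a, ha⟩ := IsCyclic.exists_ofOrder_eq_natCard (α := A)
  have hd : orderOf a ∣ s := orderOf_dvd_of_pow_eq_one (Subtype.ext (by simpa using hexp a a.2))
  rw [ha, hA] at hd
  have := Nat.le_of_dvd hs.out.pos hd
  have := hs.out.two_le
  nlinarith

end Cfsg.Agent.Lib.FourJoined
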