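import Cfsg.Agent.Lib.FourJoined.EndGame

/-! Four primes pairwise joined, no three jointly: no solvable group. -/

set_option autoImplicit false
set_option linter.style.haveILetI false

namespace Cfsg.Agent.Lib.FourJoined

open Subgroup Cfsg.Agent.Lib.Coprime Cfsg.Agent.Lib.FitHeight
open scoped commutatorElement IsMulCommutative Pointwise

variable {G : Type*} [Group G] [Finite G]

/-- No three pairwise commuting elements of distinct prime orders. -/
def NoTriple (G : Type*) [Group G] : Prop :=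
  ∀ a b c : G, a * b = b * a → a * c = c * a → b * c = c * b → (orderOf a).Prime → (orderOf b).Prime →
    (orderOf c).Prime → orderOf a ≠ orderOf b → orderOf a ≠ orderOf c → orderOf b ≠ orderOf c → False

/-- `x` fixes a nontrivial element of `W`. -/
def Fixes (x : G) (W : Subgroup G) : Prop := ∃ w ∈ W, w ≠ 1 ∧ x * w = w * x

theorem exists_pow_prime {p : ℕ} [hp : Fact p.Prime] {X : Subgroup G} (hX : IsPGroup p X) {x : G} (hx : x ∈ X)
    (hx1 : x ≠ 1) : ∃ w : G, orderOf w = p ∧ w ∈ zpowers x := by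
  obtain ⟨k, hk⟩ := IsPGroup.iff_orderOf.mp hX ⟨x, hx⟩
  rw [Subgroup.orderOf_mk] at hk
  have hk0 : k ≠ 0 := fun h0 => hx1 (orderOf_eq_one_iff.mp (by rw [hk, h0, pow_zero]))
  exact ⟨x ^ (orderOf x / p), orderOf_pow_orderOf_div (orderOf_pos x).ne' (hk ▸ dvd_pow_self p hk0),
    pow_mem (mem_zpowers x) _⟩

theorem commute_zpowers {x w v : G} (h : x * w = w * x) (hv : v ∈ zpowers w) : x * v = v * x := by
  obtain ⟨i, rfl⟩ := hv
  exact ((commute' h).zpow_right i).eq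

theorem Fixes.exists_prime {p : ℕ} [Fact p.Prime] {x : G} {W : Subgroup G} (h : Fixes x W) (hW : IsPGroup p W) :
    ∃ w ∈ W, orderOf w = p ∧ x * w = w * x := by
  obtain ⟨w, hw, hw1, hxw⟩ := h
  obtain ⟨v, hv, hvw⟩ := exists_pow_prime hW hw hw1
  exact ⟨v, zpowers_le.mpr hw hvw, hv, commute_zpowers hxw hvw⟩

theorem coprime_of_exp {t p : ℕ} (ht : t.Prime) [hp : Fact p.Prime] (htp : t ≠ p) {A K : Subgroup G}
    (hAe : ∀ a ∈ A, a ^ t = 1) (hK : IsPGroup p K) : (Nat.card A).Coprime (Nat.card K) :=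
  coprime_card_of_isPGroup ht hp.out htp (fun a => ⟨1, Subtype.ext (by simpa using hAe a a.2)⟩) hK

theorem exists_fixed_of_sq {t p : ℕ} (ht : t.Prime) [Fact p.Prime] (htp : t ≠ p) {A K : Subgroup G}
    (hA : ∀ a ∈ A, ∀ b ∈ A, a * b = b * a) (hAe : ∀ a ∈ A, a ^ t = 1) (hAc : Nat.card A = t ^ 2)
    (hK : IsPGroup p K) (hAK : A ≤ normalizer (K : Set G)) (hK1 : K ≠ ⊥) :
    ∃ a ∈ A, orderOf a = t ∧ Fixes a K := by
  by_contra h
  push Not at h
  refine hK1 (eq_bot_iff.mpr ?_)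
  rw [← fixGen_eq_of_elementary ht hA hAe hAc hAK (coprime_of_exp ht htp hAe hK)]
  refine iSup₂_le fun a ha w hw => ?_
  rw [mem_bot]
  by_contra hw1
  haveI := Fact.mk ht
  exact h a ha.1 (orderOf_eq_prime (hAe a ha.1) ha.2)
    ⟨w, hw.1, hw1, (mem_centralizer_singleton_iff.mp hw.2).symm⟩

theorem conj_mem_of_comm {A : Subgroup G} (hA : ∀ a ∈ A, ∀ b ∈ A, a * b = b * a) : A ≤ centralizer (A : Set G) :=
  fun a ha => mem_centralizer_iff.mpr fun b hb => hA b hb a ha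

/-- An elementary group of order `t ^ 2` commuting with an element that fixes something in `W` has an
element fixing the same. -/
theorem exists_common_fixed {t p : ℕ} (ht : t.Prime) [Fact p.Prime] (htp : t ≠ p) {A W : Subgroup G}
    (hA : ∀ a ∈ A, ∀ b ∈ A, a * b = b * a) (hAe : ∀ a ∈ A, a ^ t = 1) (hAc : Nat.card A = t ^ 2)
    (hW : IsPGroup p W) (hAW : A ≤ normalizer (W : Set G)) {x : G} (hAx : ∀ a ∈ A, a * x = x * a)
    (hx : Fixes x W) : ∃ a ∈ A, orderOf a = t ∧ ∃ w ∈ W, orderOf w = p ∧ a * w = w * a ∧ x * w = w * x := by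
  obtain ⟨w, hw, hw1, hxw⟩ := hx
  have hne : W ⊓ centralizer {x} ≠ ⊥ := fun h => hw1 (mem_bot.mp (h ▸ Subgroup.mem_inf.mpr
    ⟨hw, mem_centralizer_singleton_iff.mpr hxw.symm⟩))
  have hAK : A ≤ normalizer ((W ⊓ centralizer {x} : Subgroup G) : Set G) := fun a ha => by
    refine mem_normalizer_of_conj_smul_eq ?_
    rw [conj_smul_inf, conj_smul_eq_self (hAW ha), conj_smul_eq_self]
    exact le_normalizer (mem_centralizer_singleton_iff.mpr (hAx a ha))
  obtain ⟨a, ha, hao, hfix⟩ := exists_fixed_of_sq ht htp hA hAe hAc (hW.to_le inf_le_left) hAK hne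
  obtain ⟨v, hv, hvo, hav⟩ := hfix.exists_prime (hW.to_le (inf_le_left : W ⊓ centralizer {x} ≤ W))
  exact ⟨a, ha, hao, v, hv.1, hvo, hav, (mem_centralizer_singleton_iff.mp hv.2).symm⟩

theorem inv_of_fpf {W : Subgroup G} {u : G} (hu : u ^ 2 = 1) (huW : u ∈ normalizer (W : Set G))
    (hfix : ¬ Fixes u W) : ∀ y ∈ W, u * y * u⁻¹ = y⁻¹ := by
  have h2 : u * u = 1 := by rw [← pow_two, hu]
  have huinv : u⁻¹ = u := inv_eq_of_mul_eq_one_right h2
  let φ' : W ≃* W := normAct W ⟨u, huW⟩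
  have h := MonoidHom.FixedPointFree.coe_eq_inv_of_involutive (φ := φ') (fun y hy => Subtype.ext (by
      by_contra h1
      exact hfix ⟨y, y.2, h1, mul_inv_eq_iff_eq_mul.mp (congrArg Subtype.val hy)⟩))
    (fun y => Subtype.ext (by
      show u * (u * (y : G) * u⁻¹) * u⁻¹ = y
      rw [huinv, ← mul_assoc, ← mul_assoc, h2, one_mul, mul_assoc, h2, mul_one]))
  exact fun y hy => congrArg Subtype.val (congrFun h ⟨y, hy⟩)

theorem isCyclic_of_rankOne' {p : ℕ} [hp : Fact p.Prime] {X : Subgroup G} (hX : IsPGroup p X)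
    (hp' : p ≠ 2 ∨ ∀ x ∈ X, x ^ p = 1) (h : RankOne p X) : IsCyclic X := by
  rcases hp' with hp2 | hexp
  · exact isCyclic_of_rankOne hp2 hX h
  rcases Subgroup.bot_or_exists_ne_one X with h0 | ⟨x, hx, hx1⟩
  · rw [h0]; infer_instance
  · have : X = zpowers x := le_antisymm (fun y hy => by
      rcases eq_or_ne y 1 with rfl | hy1
      · exact one_mem _
      · exact h x hx y hy (orderOf_eq_prime (hexp x hx) hx1) (orderOf_eq_prime (hexp y hy) hy1))
      (zpowers_le.mpr hx)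
    rw [this]; infer_instance

theorem not_fixes_of_triple (hNT : NoTriple G) {x y : G} (hxy : x * y = y * x) {w : ℕ} [hw : Fact w.Prime]
    (hx : (orderOf x).Prime) (hy : (orderOf y).Prime) (hne : orderOf x ≠ orderOf y) (hxw : orderOf x ≠ w)
    (hyw : orderOf y ≠ w) {W : Subgroup G} (hW : IsPGroup w W) {v : G} (hv : v ∈ W) (hv1 : v ≠ 1)
    (hxv : x * v = v * x) (hyv : y * v = v * y) : False := by
  obtain ⟨u, hu, huv⟩ := exists_pow_prime hW hv hv1
  exact hNT x y u hxy (commute_zpowers hxv huv) (commute_zpowers hyv huv) hx hy (hu ▸ hw.out) hne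
    (hu ▸ hxw) (hu ▸ hyw)

theorem faithful_step (hNT : NoTriple G) {p q a b : ℕ} [Fact p.Prime] [Fact q.Prime] (ha : a.Prime) (hb : b.Prime)
    (hpq : p ≠ q) (hpa : p ≠ a) (hpb : p ≠ b) (hqa : q ≠ a) (hqb : q ≠ b) (hab : a ≠ b)
    {P Q L : Subgroup G} [Group.IsSolvable L] (hP : IsPGroup p P) (hQ : IsPGroup q Q) (hP1 : P ≠ ⊥) (hQ1 : Q ≠ ⊥)
    (hPQ : ∀ x ∈ P, ∀ y ∈ Q, x * y = y * x) (hLP : L ≤ normalizer (P : Set G)) (hLQ : L ≤ normalizer (Q : Set G))
    (hπ : ∀ l : ℕ, l.Prime → l ∣ Nat.card L → l = a ∨ l = b)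
    (hsq : ∀ l : ℕ, l = a ∨ l = b → ∃ A : Subgroup G, A ≤ L ∧ (∀ x ∈ A, ∀ y ∈ A, x * y = y * x) ∧
      (∀ x ∈ A, x ^ l = 1) ∧ Nat.card A = l ^ 2) :
    L ⊓ centralizer (P : Set G) = ⊥ := by
  by_contra hne
  let C : Subgroup L := (centralizer (P : Set G)).subgroupOf L
  haveI hCn : C.Normal := ⟨fun c hc g =>
    (mem_normalizer_iff.mp (normalizer_le_normalizer_centralizer P (hLP g.2)) _).mp hc⟩
  have hC : C ≠ ⊥ := fun h0 => hne (by
    rw [inf_comm, ← subgroupOf_map_subtype, show (centralizer (P : Set G)).subgroupOf L = ⊥ from h0,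
      Subgroup.map_bot])
  obtain ⟨N, hNn, hN, hNC, hNmin⟩ := Hall.exists_minimal_normal_le hC
  obtain ⟨hNc, l, hl, hNe⟩ := Hall.minimal_normal_solvable N hN hNmin
  haveI := Fact.mk hl
  have hNp : IsPGroup l N := Hall.isPGroup_of_pow_eq_one hNe
  haveI : Nontrivial N := (nontrivial_iff_ne_bot N).mpr hN
  have hlm : l = a ∨ l = b := hπ l hl
    ((hNp.card_eq_or_dvd.resolve_left Finite.one_lt_card.ne').trans (card_subgroup_dvd_card N))
  have hlp : l ≠ p := by rcases hlm with rfl | rfl <;> [exact hpa.symm; exact hpb.symm]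
  have hlq : l ≠ q := by rcases hlm with rfl | rfl <;> [exact hqa.symm; exact hqb.symm]
  obtain ⟨m, hm, hlmne, hmab⟩ : ∃ m : ℕ, m.Prime ∧ l ≠ m ∧ (m = a ∨ m = b) := by
    rcases hlm with rfl | rfl
    · exact ⟨b, hb, hab, Or.inr rfl⟩
    · exact ⟨a, ha, hab.symm, Or.inl rfl⟩
  have hmp : m ≠ p := by rcases hmab with rfl | rfl <;> [exact hpa.symm; exact hpb.symm]
  have hmq : m ≠ q := by rcases hmab with rfl | rfl <;> [exact hqa.symm; exact hqb.symm]
  obtain ⟨c, hc, hc1⟩ := (Subgroup.bot_or_exists_ne_one P).resolve_left hP1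
  let X : Subgroup G := N.map L.subtype
  have hXe : ∀ x ∈ X, x ^ l = 1 := by
    rintro _ ⟨x, hx, rfl⟩; rw [← map_pow, hNe x hx, map_one]
  have hXp : IsPGroup l X := hNp.map _
  have hXcomm : ∀ x ∈ X, ∀ y ∈ X, x * y = y * x := by
    rintro _ ⟨x, hx, rfl⟩ _ ⟨y, hy, rfl⟩
    rw [← map_mul, ← map_mul]
    exact congrArg _ (congrArg Subtype.val (mul_comm (⟨x, hx⟩ : N) ⟨y, hy⟩))
  have hXP : ∀ x ∈ X, ∀ y ∈ P, x * y = y * x := by
    rintro _ ⟨x, hx, rfl⟩ y hy
    exact (mem_centralizer_iff.mp (mem_subgroupOf.mp (hNC hx)) y hy).symm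
  have hXQ : ∀ x ∈ X, x ≠ 1 → ¬ Fixes x Q := by
    intro x hx hx1 hfix
    obtain ⟨w, hw, hwo, hxw⟩ := hfix.exists_prime hQ
    have hxo := orderOf_eq_prime (hXe x hx) hx1
    exact not_fixes_of_triple hNT hxw (hxo ▸ hl) (hwo ▸ (Fact.out : q.Prime)) (by rw [hxo, hwo]; exact hlq)
      (hxo ▸ hlp) (hwo ▸ hpq.symm) hP hc hc1 (hXP x hx c hc) (hPQ c hc w hw).symm
  have hXL : X ≤ L := map_subtype_le N
  have hLX : L ≤ normalizer (X : Set G) := by
    refine le_trans ?_ (le_normalizer_map L.subtype)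
    rw [normalizer_eq_top, ← MonoidHom.range_eq_map, range_subtype]
  have hX1 : IsCyclic X := by
    refine isCyclic_of_rankOne' hXp (Or.inr hXe) ?_
    by_contra hr
    obtain ⟨A, hAX, hA, hAe, hAc⟩ := exists_sq hXp hr
    obtain ⟨y, hy, hyo, hyf⟩ := exists_fixed_of_sq hl hlq hA hAe hAc hQ
      ((hAX.trans hXL).trans hLQ) hQ1
    exact hXQ y (hAX hy) (fun h => hl.one_lt.ne (by rw [← hyo, h, orderOf_one])) hyf
  obtain ⟨A, hAL, hA, hAe, hAc⟩ := hsq m hmab
  obtain ⟨y, hy, hyo, hyf⟩ := exists_fixed_of_sq hm hmp hA hAe hAc hP (hAL.trans hLP) hP1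
  have hym : y ^ m = 1 := hAe y hy
  -- `y` moves the line and fixes nothing in `Q`
  have hyQ : ¬ Fixes y Q := by
    intro hf
    obtain ⟨w, hw, hwo, hyw⟩ := hf.exists_prime hQ
    obtain ⟨v, hv, hv1, hyv⟩ := hyf
    exact not_fixes_of_triple hNT hyw (hyo ▸ hm) (hwo ▸ (Fact.out : q.Prime)) (by rw [hyo, hwo]; exact hmq)
      (hyo ▸ hmp) (hwo ▸ hpq.symm) hP hv hv1 hyv (hPQ v hv w hw).symm
  obtain ⟨x, hx, hx1⟩ : ∃ x ∈ X, x ≠ 1 := by
    obtain ⟨n, hn, hn1⟩ := (Subgroup.bot_or_exists_ne_one N).resolve_left hN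
    exact ⟨n, ⟨n, hn, rfl⟩, fun h => hn1 (Subtype.ext h)⟩
  have hcent := fpf_central (P := Q) (R := X) hm hl hmq.symm hlmne hlq.symm hQ hXp
    (hXL.trans hLQ) (hLQ (hAL hy)) (hLX (hAL hy)) hym
    (fun w hw hyw => by by_contra h; exact hyQ ⟨w, hw, h, hyw⟩) (Or.inr (Or.inr hXcomm)) hx
  have hmem : y * x * y⁻¹ * x⁻¹ ∈ X := mul_mem ((mem_normalizer_iff.mp (hLX (hAL hy)) x).mp hx) (inv_mem hx)
  have hxy : y * x = x * y := by
    by_contra h
    have h1 : y * x * y⁻¹ * x⁻¹ ≠ 1 := fun e => h (mul_inv_eq_iff_eq_mul.mp (mul_inv_eq_one.mp e))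
    obtain ⟨w, hw, hw1⟩ := (Subgroup.bot_or_exists_ne_one Q).resolve_left hQ1
    exact hXQ _ hmem h1 ⟨w, hw, hw1, (mem_centralizer_iff.mp hcent w hw).symm⟩
  obtain ⟨v, hv, hv1, hyv⟩ := hyf
  have hxo := orderOf_eq_prime (hXe x hx) hx1
  exact not_fixes_of_triple hNT hxy (hyo ▸ hm) (hxo ▸ hl) (by rw [hyo, hxo]; exact hlmne.symm)
    (hyo ▸ hmp) (hxo ▸ hlp) hP hv hv1 hyv (hXP x hx v hv)

theorem pCore_subgroup_le {p : ℕ} (L : Subgroup G) : (Cfsg.pCore p L).map L.subtype ≤ L := map_subtype_le _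

theorem le_normalizer_pCore {p : ℕ} (L : Subgroup G) :
    L ≤ normalizer (((Cfsg.pCore p L).map L.subtype : Subgroup G) : Set G) := by
  refine le_trans ?_ (le_normalizer_map L.subtype)
  rw [normalizer_eq_top, ← MonoidHom.range_eq_map, range_subtype]

theorem exists_sq_le_conj {π : Set ℕ} [Group.IsSolvable G] {H : Subgroup G}
    (hH : ∀ p : ℕ, p.Prime → p ∣ Nat.card H → p ∈ π) (hHi : ∀ p : ℕ, p.Prime → p ∈ π → ¬ p ∣ H.index)
    {l : ℕ} (hl : l.Prime) (hlπ : l ∈ π)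
    (h : ∃ A : Subgroup G, (∀ x ∈ A, ∀ y ∈ A, x * y = y * x) ∧ (∀ x ∈ A, x ^ l = 1) ∧ Nat.card A = l ^ 2) :
    ∃ A : Subgroup G, A ≤ H ∧ (∀ x ∈ A, ∀ y ∈ A, x * y = y * x) ∧ (∀ x ∈ A, x ^ l = 1) ∧ Nat.card A = l ^ 2 := by
  obtain ⟨A, hA, hAe, hAc⟩ := h
  obtain ⟨g, hg⟩ := Hall.exists_le_conj (H := H) (K := A)
    (Nat.coprime_of_dvd fun k hk h1 h2 => hHi k hk (hH k hk h1) h2)
    (by rw [hAc]; exact (hl.coprime_iff_not_dvd.mpr (hHi l hl hlπ)).pow_left 2)
  refine ⟨MulAut.conj g⁻¹ • A, ?_, ?_, ?_, by rw [card_conj_smul, hAc]⟩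
  · intro x hx
    rw [mem_conj_smul] at hx
    have := hg hx
    rw [mem_conj_smul] at this
    simpa [mul_assoc] using this
  · intro x hx y hy
    rw [mem_conj_smul] at hx hy
    have := hA _ hx _ hy
    simp only [inv_inv] at this
    calc x * y = g⁻¹ * ((g * x * g⁻¹) * (g * y * g⁻¹)) * g := by group
      _ = g⁻¹ * ((g * y * g⁻¹) * (g * x * g⁻¹)) * g := by rw [this]
      _ = y * x := by group
  · intro x hx
    rw [mem_conj_smul, inv_inv] at hx
    have := hAe _ hx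
    rw [conj_pow, conj_eq_one_iff] at this
    exact this

theorem false_of_two_cores [Group.IsSolvable G] (hNT : NoTriple G) {p q r s : ℕ} [Fact p.Prime] [Fact q.Prime]
    [Fact r.Prime] [Fact s.Prime] (hpq : p ≠ q) (hpr : p ≠ r) (hps : p ≠ s) (hqr : q ≠ r) (hqs : q ≠ s) (hrs : r ≠ s)
    (hπ : ∀ l : ℕ, l.Prime → l ∣ Nat.card G → l = p ∨ l = q ∨ l = r ∨ l = s)
    (hsq : ∀ l : ℕ, (l = p ∨ l = q ∨ l = r ∨ l = s) → ∃ A : Subgroup G,
      (∀ x ∈ A, ∀ y ∈ A, x * y = y * x) ∧ (∀ x ∈ A, x ^ l = 1) ∧ Nat.card A = l ^ 2)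
    (hP : Cfsg.pCore p G ≠ ⊥) (hQ : Cfsg.pCore q G ≠ ⊥) : False := by
  classical
  set P := Cfsg.pCore p G with hPdef
  set Q := Cfsg.pCore q G with hQdef
  have hPp : IsPGroup p P := Hall.isPGroup_pCore p
  have hQp : IsPGroup q Q := Hall.isPGroup_pCore q
  have hPQ : ∀ x ∈ P, ∀ y ∈ Q, x * y = y * x := fun x hx y hy => (Hall.commute_pCore hpq hx hy).eq
  have hbot : ∀ l : ℕ, l.Prime → l ≠ p → l ≠ q → Cfsg.pCore l G = ⊥ := by
    intro l hl hlp hlq
    haveI := Fact.mk hl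
    by_contra hne
    obtain ⟨a, ha, ha1⟩ := (Subgroup.bot_or_exists_ne_one _).resolve_left hne
    obtain ⟨u, hu, hua⟩ := exists_pow_prime (Hall.isPGroup_pCore l) ha ha1
    obtain ⟨b, hb, hb1⟩ := (Subgroup.bot_or_exists_ne_one _).resolve_left hP
    obtain ⟨v, hv, hvb⟩ := exists_pow_prime hPp hb hb1
    obtain ⟨c, hc, hc1⟩ := (Subgroup.bot_or_exists_ne_one _).resolve_left hQ
    obtain ⟨w, hw, hwc⟩ := exists_pow_prime hQp hc hc1
    refine hNT u v w (Hall.commute_pCore hlp (zpowers_le.mpr ha hua) (zpowers_le.mpr hb hvb)).eq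
      (Hall.commute_pCore hlq (zpowers_le.mpr ha hua) (zpowers_le.mpr hc hwc)).eq
      (hPQ v (zpowers_le.mpr hb hvb) w (zpowers_le.mpr hc hwc)) (hu ▸ hl) (hv ▸ Fact.out) (hw ▸ Fact.out)
      (by rw [hu, hv]; exact hlp) (by rw [hu, hw]; exact hlq) (by rw [hv, hw]; exact hpq)
  obtain ⟨L, hLπ, hLi⟩ := Hall.exists_piHall (G := G) {r, s}
  have hLP : L ≤ normalizer (P : Set G) := le_normalizer_of_normal
  have hLQ : L ≤ normalizer (Q : Set G) := le_normalizer_of_normal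
  have hLπ' : ∀ l : ℕ, l.Prime → l ∣ Nat.card L → l = r ∨ l = s := fun l hl hd => by simpa using hLπ l hl hd
  have hLsq : ∀ l : ℕ, l = r ∨ l = s → ∃ A : Subgroup G, A ≤ L ∧ (∀ x ∈ A, ∀ y ∈ A, x * y = y * x) ∧
      (∀ x ∈ A, x ^ l = 1) ∧ Nat.card A = l ^ 2 := fun l hl => exists_sq_le_conj hLπ hLi
    (by rcases hl with rfl | rfl <;> exact Fact.out) (by simpa using hl) (hsq l (Or.inr (Or.inr hl)))
  have hfP := faithful_step hNT (L := L) (Fact.out : r.Prime) (Fact.out : s.Prime) hpq hpr hps hqr hqs hrs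
    hPp hQp hP hQ hPQ hLP hLQ hLπ' hLsq
  have hfQ := faithful_step hNT (L := L) (Fact.out : r.Prime) (Fact.out : s.Prime) hpq.symm hqr hqs hpr hps hrs
    hQp hPp hQ hP (fun x hx y hy => (hPQ y hy x hx).symm) hLQ hLP hLπ' hLsq
  have hnotboth : ∀ x : G, ∀ l : ℕ, (l = r ∨ l = s) → orderOf x = l → ¬ (Fixes x P ∧ Fixes x Q) := by
    rintro x l hl hxo ⟨⟨v, hv, hv1, hxv⟩, hf⟩
    obtain ⟨w, hw, hwo, hxw⟩ := hf.exists_prime hQp
    have hlpr : l.Prime := by rcases hl with rfl | rfl <;> exact Fact.out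
    refine not_fixes_of_triple hNT hxw (hxo ▸ hlpr) (hwo ▸ (Fact.out : q.Prime)) ?_ ?_ (hwo ▸ hpq.symm) hPp hv
      hv1 hxv (hPQ v hv w hw).symm
    · rw [hxo, hwo]; rcases hl with rfl | rfl <;> [exact hqr.symm; exact hqs.symm]
    · rw [hxo]; rcases hl with rfl | rfl <;> [exact hpr.symm; exact hps.symm]
  -- the two primes are odd
  have hodd : ∀ l : ℕ, l = r ∨ l = s → l ≠ 2 := by
    rintro l hl rfl
    obtain ⟨A, hAL, hA, hAe, hAc⟩ := hLsq 2 hl
    have hkey : ∀ W : Subgroup G, A ≤ normalizer (W : Set G) → L ⊓ centralizer (W : Set G) = ⊥ →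
        ∀ a ∈ A, ∀ b ∈ A, ¬ Fixes a W → ¬ Fixes b W → a = b := by
      intro W hAW hW a ha b hb hfa hfb
      have hab : a * b ∈ L ⊓ centralizer (W : Set G) := by
        refine ⟨L.mul_mem (hAL ha) (hAL hb), mem_centralizer_iff.mpr fun y hy => ?_⟩
        have h1 := inv_of_fpf (hAe a ha) (hAW ha) hfa
        have h2 := inv_of_fpf (hAe b hb) (hAW hb) hfb
        have e : (a * b) * y * (a * b)⁻¹ = y := by
          calc (a * b) * y * (a * b)⁻¹ = a * (b * y * b⁻¹) * a⁻¹ := by group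
            _ = y := by rw [h2 y hy, h1 _ (W.inv_mem hy), inv_inv]
        exact (mul_inv_eq_iff_eq_mul.mp e).symm
      rw [hW, mem_bot] at hab
      have hb2 : b * b = 1 := by rw [← pow_two, hAe b hb]
      exact mul_right_cancel (hab.trans hb2.symm)
    have hdich : ∀ a ∈ A, a ≠ 1 → ¬ Fixes a P ∨ ¬ Fixes a Q := fun a ha ha1 =>
      not_and_or.mp (hnotboth a 2 hl (orderOf_eq_prime (hAe a ha) ha1))
    obtain ⟨a, ha, ha1⟩ := (Subgroup.bot_or_exists_ne_one A).resolve_left fun h => by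
      rw [h, Subgroup.card_bot] at hAc; norm_num at hAc
    obtain ⟨b, hb, hba⟩ : ∃ b ∈ A, b ∉ zpowers a := by
      by_contra h
      push Not at h
      have := card_dvd_of_le (show A ≤ zpowers a from h)
      rw [hAc, Nat.card_zpowers, orderOf_eq_prime (hAe a ha) ha1] at this
      exact absurd (Nat.le_of_dvd (by norm_num) this) (by norm_num)
    have hb1 : b ≠ 1 := fun h => hba (h ▸ one_mem _)
    have hab1 : a * b ≠ 1 := fun h => hba (by
      rw [← inv_eq_of_mul_eq_one_right h]; exact inv_mem (mem_zpowers a))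
    have hab : a ≠ b := fun h => hba (h ▸ mem_zpowers a)
    have habA := A.mul_mem ha hb
    have h1 : a * b ≠ a := fun h => hb1 (mul_eq_left.mp h)
    have h2 : a * b ≠ b := fun h => ha1 (mul_eq_right.mp h)
    have kP := hkey P (hAL.trans hLP) hfP
    have kQ := hkey Q (hAL.trans hLQ) hfQ
    rcases hdich a ha ha1 with x | x <;> rcases hdich b hb hb1 with y | y <;>
      rcases hdich _ habA hab1 with z | z
    all_goals first
      | exact hab (kP a ha b hb x y)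
      | exact hab (kQ a ha b hb x y)
      | exact h1 (kP _ habA a ha z x)
      | exact h1 (kQ _ habA a ha z x)
      | exact h2 (kP _ habA b hb z y)
      | exact h2 (kQ _ habA b hb z y)
  -- elements of prime order centralise the other core of `L`
  have hcentral : ∀ l m : ℕ, (l = r ∨ l = s) → (m = r ∨ m = s) → l ≠ m → ∀ x ∈ L, orderOf x = l →
      ∀ y ∈ (Cfsg.pCore m L).map L.subtype, x * y = y * x := by
    intro l m hl hm hlm x hxL hxo y hy
    have hlpr : l.Prime := by rcases hl with rfl | rfl <;> exact Fact.out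
    have hmpr : m.Prime := by rcases hm with rfl | rfl <;> exact Fact.out
    haveI := Fact.mk hmpr
    have hR : IsPGroup m ((Cfsg.pCore m L).map L.subtype) := (Hall.isPGroup_pCore m).map _
    have hlp : l ≠ p ∧ l ≠ q ∧ m ≠ p ∧ m ≠ q := by
      rcases hl with rfl | rfl <;> rcases hm with rfl | rfl <;>
        exact ⟨by first | exact hpr.symm | exact hps.symm, by first | exact hqr.symm | exact hqs.symm,
          by first | exact hpr.symm | exact hps.symm, by first | exact hqr.symm | exact hqs.symm⟩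
    have hxR := le_normalizer_pCore (p := m) L hxL
    have hcl : x * y * x⁻¹ * y⁻¹ ∈ L :=
      L.mul_mem (L.mul_mem (L.mul_mem hxL (map_subtype_le _ hy)) (L.inv_mem hxL)) (L.inv_mem (map_subtype_le _ hy))
    have hxl : x ^ l = 1 := by rw [← hxo, pow_orderOf_eq_one]
    suffices h : x * y * x⁻¹ * y⁻¹ = 1 from mul_inv_eq_iff_eq_mul.mp (mul_inv_eq_one.mp h)
    rcases not_and_or.mp (hnotboth x l hl hxo) with hf | hf
    · have := fpf_central (P := P) hlpr hmpr hlp.1.symm hlm.symm hlp.2.2.1.symm hPp hR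
        ((map_subtype_le _).trans hLP) (hLP hxL) hxR hxl (fun w hw h => by by_contra h1; exact hf ⟨w, hw, h1, h⟩)
        (Or.inr (Or.inl (hodd m hm))) hy
      exact mem_bot.mp (hfP ▸ Subgroup.mem_inf.mpr ⟨hcl, this⟩)
    · have := fpf_central (P := Q) hlpr hmpr hlp.2.1.symm hlm.symm hlp.2.2.2.symm hQp hR
        ((map_subtype_le _).trans hLQ) (hLQ hxL) hxR hxl (fun w hw h => by by_contra h1; exact hf ⟨w, hw, h1, h⟩)
        (Or.inr (Or.inl (hodd m hm))) hy
      exact mem_bot.mp (hfQ ▸ Subgroup.mem_inf.mpr ⟨hcl, this⟩)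
  have hcyc : ∀ l : ℕ, l.Prime → IsCyclic (Cfsg.pCore l L) := by
    intro l hl
    haveI := Fact.mk hl
    by_cases hd : l ∣ Nat.card L
    swap
    · rw [Hall.pCore_eq_bot_of_not_dvd hd]; infer_instance
    have hlrs := hLπ' l hl hd
    obtain ⟨m, hm, hlm⟩ : ∃ m, (m = r ∨ m = s) ∧ m ≠ l := by
      rcases hlrs with rfl | rfl
      · exact ⟨s, Or.inr rfl, hrs.symm⟩
      · exact ⟨r, Or.inl rfl, hrs⟩
    have hmpr : m.Prime := by rcases hm with rfl | rfl <;> exact Fact.out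
    have hlp' : l ≠ p ∧ l ≠ q ∧ m ≠ p ∧ m ≠ q := by
      rcases hlrs with rfl | rfl <;> rcases hm with rfl | rfl <;>
        exact ⟨by first | exact hpr.symm | exact hps.symm, by first | exact hqr.symm | exact hqs.symm,
          by first | exact hpr.symm | exact hps.symm, by first | exact hqr.symm | exact hqs.symm⟩
    let R : Subgroup G := (Cfsg.pCore l L).map L.subtype
    have hR : IsPGroup l R := (Hall.isPGroup_pCore l).map _
    haveI : IsCyclic R := by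
      refine isCyclic_of_rankOne (hodd l hlrs) hR ?_
      by_contra hr
      obtain ⟨A, hAR, hA, hAe, hAc⟩ := exists_sq hR hr
      obtain ⟨B, hBL, hB, hBe, hBc⟩ := hLsq m hm
      obtain ⟨b, hb, hbo, hbf⟩ := exists_fixed_of_sq hmpr hlp'.2.2.1 hB hBe hBc hPp (hBL.trans hLP) hP
      have hAb : ∀ a ∈ A, a * b = b * a := fun a ha =>
        (hcentral m l hm hlrs hlm b (hBL hb) hbo a (hAR ha)).symm
      obtain ⟨a, ha, hao, w, hw, hwo, haw, hbw⟩ := exists_common_fixed hl hlp'.1 hA hAe hAc hPp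
        ((hAR.trans (map_subtype_le _)).trans hLP) hAb hbf
      exact hNT a b w (hAb a ha) haw hbw (hao ▸ hl) (hbo ▸ hmpr) (hwo ▸ Fact.out)
        (by rw [hao, hbo]; exact hlm.symm) (by rw [hao, hwo]; exact hlp'.1) (by rw [hbo, hwo]; exact hlp'.2.2.1)
    exact isCyclic_of_surjective ((Cfsg.pCore l L).equivMapOfInjective L.subtype L.subtype_injective).symm.toMonoidHom
      (MulEquiv.surjective _)
  obtain ⟨A, hAL, hA, hAe, hAc⟩ := hLsq r (Or.inl rfl)
  refine false_of_all_cyclic (L := L) (s := r) hcyc (A.subgroupOf L)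
    (fun a ha => Subtype.ext (by simpa using hAe _ ha))
    (by rw [Nat.card_congr (subgroupOfEquivOfLe hAL).toEquiv, hAc]) fun l hl hlr a ha => ?_
  refine mem_centralizer_iff.mpr fun y hy => ?_
  haveI := Fact.mk hl
  rcases eq_or_ne a 1 with rfl | ha1
  · simp
  by_cases hd : l ∣ Nat.card L
  swap
  · rw [SetLike.mem_coe, Hall.pCore_eq_bot_of_not_dvd hd, mem_bot] at hy
    simp [hy]
  have hls : l = s := (hLπ' l hl hd).resolve_left hlr
  subst hls
  exact Subtype.ext (hcentral r l (Or.inl rfl) (Or.inr rfl) hlr.symm a a.2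
    (orderOf_eq_prime (hAe _ ha) (fun h => ha1 (Subtype.ext h))) y ⟨y, hy, rfl⟩).symm

/-- The part of `O_l` used as a lower tier: noncyclic, in which a subgroup without `l²` is cyclic. -/
theorem exists_tier {l : ℕ} [hl : Fact l.Prime] {L : Subgroup G} (hnc : ¬ IsCyclic (Cfsg.pCore l L))
    (hno2 : l = 2 → ∀ z ∈ L, orderOf z = 2 → (∀ g ∈ L, g * z = z * g) → False) :
    ∃ D : Subgroup G, D ≤ L ∧ L ≤ normalizer (D : Set G) ∧ IsPGroup l D ∧ ¬ IsCyclic D ∧ ¬ RankOne l D ∧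
      (∀ X : Subgroup G, X ≤ D → RankOne l X → IsCyclic X) ∧ (l ≠ 2 ∨ ∀ a ∈ D, ∀ b ∈ D, a * b = b * a) := by
  let D0 : Subgroup G := (Cfsg.pCore l L).map L.subtype
  have hD0 : IsPGroup l D0 := (Hall.isPGroup_pCore l).map _
  have hD0L : D0 ≤ L := map_subtype_le _
  have hLD0 : L ≤ normalizer (D0 : Set G) := le_normalizer_pCore L
  have hnc0 : ¬ IsCyclic D0 := fun h => hnc (isCyclic_of_surjective
    ((Cfsg.pCore l L).equivMapOfInjective L.subtype L.subtype_injective).symm.toMonoidHom (MulEquiv.surjective _))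
  rcases eq_or_ne l 2 with h2 | h2
  · let D : Subgroup G :=
      { carrier := {x | (x ∈ D0 ∧ x ∈ centralizer (D0 : Set G)) ∧ x ^ l = 1}
        one_mem' := ⟨⟨one_mem _, one_mem _⟩, one_pow _⟩
        mul_mem' := fun {a b} ha hb => ⟨⟨mul_mem ha.1.1 hb.1.1, mul_mem ha.1.2 hb.1.2⟩, by
          rw [(commute' (mem_centralizer_iff.mp hb.1.2 a ha.1.1)).mul_pow, ha.2, hb.2, one_mul]⟩
        inv_mem' := fun {a} ha => ⟨⟨inv_mem ha.1.1, inv_mem ha.1.2⟩, by rw [inv_pow, ha.2, inv_one]⟩ }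
    have hDD0 : D ≤ D0 := fun x hx => hx.1.1
    have hDc : ∀ a ∈ D, ∀ b ∈ D, a * b = b * a := fun a ha b hb => mem_centralizer_iff.mp hb.1.2 a ha.1.1
    have hDp : IsPGroup l D := hD0.to_le hDD0
    have hLD : L ≤ normalizer (D : Set G) := fun g hg => mem_normalizer_iff.mpr fun x => by
      show (x ∈ D0 ∧ x ∈ centralizer (D0 : Set G)) ∧ x ^ l = 1 ↔ _
      show _ ↔ (g * x * g⁻¹ ∈ D0 ∧ g * x * g⁻¹ ∈ centralizer (D0 : Set G)) ∧ (g * x * g⁻¹) ^ l = 1
      rw [← mem_normalizer_iff.mp (hLD0 hg) x,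
        show g * x * g⁻¹ ∈ centralizer (D0 : Set G) ↔ x ∈ centralizer (D0 : Set G) from
          (mem_normalizer_iff.mp (normalizer_le_normalizer_centralizer D0 (hLD0 hg)) x).symm,
        conj_pow, conj_eq_one_iff]
    have hDne : D ≠ ⊥ := by
      intro h0
      haveI : Nontrivial D0 := (nontrivial_iff_ne_bot D0).mpr fun h => hnc0 (by rw [h]; infer_instance)
      haveI := hD0.center_nontrivial
      obtain ⟨⟨⟨z, hz⟩, hzc⟩, hzo⟩ := exists_prime_orderOf_dvd_card' l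
        (((hD0.to_subgroup (center D0)).card_eq_or_dvd).resolve_left (Finite.one_lt_card.ne'))
      rw [Subgroup.orderOf_mk, Subgroup.orderOf_mk] at hzo
      have hzD : z ∈ D := ⟨⟨hz, mem_centralizer_iff.mpr fun g hg =>
        congrArg Subtype.val (mem_center_iff.mp hzc ⟨g, hg⟩)⟩, by rw [← hzo, pow_orderOf_eq_one]⟩
      rw [h0, mem_bot] at hzD
      rw [hzD, orderOf_one] at hzo
      exact hl.out.one_lt.ne hzo
    have hexp : ∀ x ∈ D, x ^ l = 1 := fun x hx => hx.2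
    have hnr : ¬ RankOne l D := by
      intro h
      obtain ⟨z, hz, hz1⟩ := (Subgroup.bot_or_exists_ne_one D).resolve_left hDne
      refine hno2 h2 z (hD0L (hDD0 hz)) (by rw [← h2]; exact orderOf_eq_prime (hexp z hz) hz1) fun g hg => ?_
      have hgz : g * z * g⁻¹ ∈ D := (mem_normalizer_iff.mp (hLD hg) z).mp hz
      have hne : g * z * g⁻¹ ≠ 1 := fun e => hz1 (conj_eq_one_iff.mp e)
      have hmem := h z hz _ hgz (orderOf_eq_prime (hexp z hz) hz1) (orderOf_eq_prime (hexp _ hgz) hne)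
      rw [← mem_powers_iff_mem_zpowers, Submonoid.mem_powers_iff] at hmem
      obtain ⟨i, hi⟩ := hmem
      rw [h2] at hexp
      rcases Nat.even_or_odd' i with ⟨j, rfl | rfl⟩
      · rw [pow_mul, hexp z hz, one_pow] at hi
        exact absurd hi.symm hne
      · rw [pow_succ, pow_mul, hexp z hz, one_pow, one_mul] at hi
        exact mul_inv_eq_iff_eq_mul.mp hi.symm
    refine ⟨D, hDD0.trans hD0L, hLD, hDp, fun h => hnr ?_, hnr,
      fun X hX hr => isCyclic_of_rankOne' (hDp.to_le hX) (Or.inr fun x hx => hexp x (hX hx)) hr,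
      Or.inr hDc⟩
    intro x hx y hy hxo hyo
    haveI := h
    exact mem_zpowers_of_cyclic D hx hy (hyo.trans hxo.symm)
  · exact ⟨D0, hD0L, hLD0, hD0, hnc0, fun h => hnc0 (isCyclic_of_rankOne h2 hD0 h), 
      fun X hX hr => isCyclic_of_rankOne h2 (hD0.to_le hX) hr, Or.inl h2⟩

theorem false_of_one_core [Group.IsSolvable G] (hNT : NoTriple G) {σ : Finset ℕ} (hσc : σ.card = 4)
    (hσp : ∀ l ∈ σ, l.Prime) (hπ : ∀ l : ℕ, l.Prime → l ∣ Nat.card G → l ∈ σ)
    (hsq : ∀ l ∈ σ, ∃ A : Subgroup G, (∀ x ∈ A, ∀ y ∈ A, x * y = y * x) ∧ (∀ x ∈ A, x ^ l = 1) ∧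
      Nat.card A = l ^ 2)
    (hedge : ∀ a ∈ σ, ∀ b ∈ σ, a ≠ b → ∃ x y : G, x * y = y * x ∧ orderOf x = a ∧ orderOf y = b)
    {q : ℕ} [hq : Fact q.Prime] (hqσ : q ∈ σ) (hW : Cfsg.pCore q G ≠ ⊥)
    (honly : ∀ l : ℕ, l.Prime → l ≠ q → Cfsg.pCore l G = ⊥) : False := by
  classical
  set W := Cfsg.pCore q G with hWdef
  have hWp : IsPGroup q W := Hall.isPGroup_pCore q
  have hWn : ∀ H : Subgroup G, H ≤ normalizer (W : Set G) := fun H => le_normalizer_of_normal
  have hCW : centralizer (W : Set G) ≤ W := by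
    have hF : Cfsg.fittingSubgroup G ≤ W := by
      rw [Hall.fittingSubgroup_eq_iSup_pCore, iSup_le_iff]
      intro l
      rcases eq_or_ne (l : ℕ) q with h | h
      · rw [h]
      · rw [honly l l.2 h]; exact bot_le
    refine le_trans ?_ ((Hall.centralizer_fittingSubgroup_le (G := G)).trans hF)
    exact centralizer_le hF
  obtain ⟨K, hKπ, hKi⟩ := Hall.exists_piHall (G := G) (↑(σ.erase q) : Set ℕ)
  have hKσ : ∀ l : ℕ, l.Prime → l ∣ Nat.card K → l ∈ σ ∧ l ≠ q := fun l hl hd => by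
    have := hKπ l hl hd
    rw [Finset.mem_coe, Finset.mem_erase] at this
    exact ⟨this.2, this.1⟩
  have hfaith : ∀ x ∈ K, x ∈ centralizer (W : Set G) → x = 1 := by
    intro x hx hxc
    have h1 : orderOf x ∣ Nat.card W := orderOf_dvd_natCard W (hCW hxc)
    have h2 : orderOf x ∣ Nat.card K := orderOf_dvd_natCard K hx
    by_contra hne
    obtain ⟨l, hl, hld⟩ := Nat.exists_prime_and_dvd (mt orderOf_eq_one_iff.mp hne)
    obtain ⟨n, hn⟩ := IsPGroup.iff_card.mp hWp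
    exact (hKσ l hl (hld.trans h2)).2
      ((Nat.prime_dvd_prime_iff_eq hl hq.out).mp (hl.dvd_of_dvd_pow (hn ▸ hld.trans h1)))
  have hordK : ∀ x ∈ K, (orderOf x).Prime → orderOf x ∈ σ ∧ orderOf x ≠ q := fun x hx hp =>
    hKσ _ hp (orderOf_dvd_natCard K hx)
  have hsqK : ∀ l ∈ σ, l ≠ q → ∃ A : Subgroup G, A ≤ K ∧ (∀ x ∈ A, ∀ y ∈ A, x * y = y * x) ∧
      (∀ x ∈ A, x ^ l = 1) ∧ Nat.card A = l ^ 2 := fun l hl hlq =>
    exists_sq_le_conj hKπ hKi (hσp l hl) (by simp [hl, hlq]) (hsq l hl)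
  -- no pair with a common fixed point
  have hP1 : ∀ x ∈ K, ∀ y ∈ K, x * y = y * x → (orderOf x).Prime → (orderOf y).Prime →
      orderOf x ≠ orderOf y → ∀ v ∈ W, v ≠ 1 → x * v = v * x → y * v = v * y → False :=
    fun x hx y hy hxy hxp hyp hne v hv hv1 hxv hyv => not_fixes_of_triple hNT hxy hxp hyp hne
      (hordK x hx hxp).2 (hordK y hy hyp).2 hWp hv hv1 hxv hyv
  have hcommK : ∀ x ∈ K, ∀ {m : ℕ}, m.Prime → orderOf x = m → Fixes x W → ∀ {l : ℕ}, l.Prime → l ≠ m →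
      ∀ A : Subgroup G, A ≤ K → (∀ a ∈ A, ∀ b ∈ A, a * b = b * a) → (∀ a ∈ A, a ^ l = 1) →
        Nat.card A = l ^ 2 → (∀ a ∈ A, a * x = x * a) → False := by
    intro x hx m hm hxo hfix l hl hlm A hAK hA hAe hAc hAx
    haveI := Fact.mk hl
    have hlq : l ≠ q := (hKσ l hl ((dvd_pow_self l two_ne_zero).trans (hAc ▸ card_dvd_of_le hAK))).2
    obtain ⟨a, ha, hao, w, hw, hwo, haw, hxw⟩ := exists_common_fixed hl hlq hA hAe hAc hWp (hWn A) hAx hfix
    exact hP1 a (hAK ha) x hx (hAx a ha) (hao ▸ hl) (hxo ▸ hm) (by rw [hao, hxo]; exact hlm) w hw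
      (fun h => hq.out.one_lt.ne (by rw [← hwo, h, orderOf_one])) haw hxw
  -- fixed point free elements centralise the normalised tiers
  have hfpf : ∀ x ∈ K, ∀ {m : ℕ}, m.Prime → orderOf x = m → ¬ Fixes x W → ∀ {l : ℕ}, l.Prime → l ≠ m →
      ∀ D : Subgroup G, D ≤ K → IsPGroup l D → x ∈ normalizer (D : Set G) →
        (m = 2 ∨ l ≠ 2 ∨ ∀ a ∈ D, ∀ b ∈ D, a * b = b * a) → x ∈ centralizer (D : Set G) := by
    intro x hx m hm hxo hfix l hl hlm D hDK hD hxD hex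
    refine mem_centralizer_iff.mpr fun d hd => ?_
    haveI := Fact.mk hl
    rcases eq_or_ne d 1 with rfl | hd1
    · simp
    have hlq : l ≠ q := by
      obtain ⟨u, hu, hud⟩ := exists_pow_prime hD hd hd1
      exact hu ▸ (hordK u (hDK (zpowers_le.mpr hd hud)) (hu ▸ hl)).2
    have hmq : m ≠ q := hxo ▸ (hordK x hx (hxo ▸ hm)).2
    have := fpf_central (P := W) (R := D) hm hl hmq.symm hlm hlq.symm hWp hD (hWn D)
      (le_normalizer_of_normal (mem_top x)) hxD (by rw [← hxo, pow_orderOf_eq_one])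
      (fun w hw h => by by_contra h1; exact hfix ⟨w, hw, h1, h⟩) hex hd
    have h1 : x * d * x⁻¹ * d⁻¹ = 1 := hfaith _
      (K.mul_mem (K.mul_mem (K.mul_mem hx (hDK hd)) (K.inv_mem hx)) (K.inv_mem (hDK hd))) this
    exact (mul_inv_eq_iff_eq_mul.mp (mul_inv_eq_one.mp h1)).symm
  -- no central involution in `K`
  have hno2K : ∀ z ∈ K, orderOf z = 2 → (∀ g ∈ K, g * z = z * g) → False := by
    intro z hz hzo hzc
    obtain ⟨h2σ, h2q⟩ := hzo ▸ hordK z hz (hzo ▸ Nat.prime_two)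
    have hcard : ((σ.erase q).erase 2).card = 2 := by
      rw [Finset.card_erase_of_mem (Finset.mem_erase.mpr ⟨h2q, h2σ⟩), Finset.card_erase_of_mem hqσ, hσc]
    obtain ⟨a, b, hab, hset⟩ := Finset.card_eq_two.mp hcard
    have ha : a ∈ σ ∧ a ≠ q ∧ a ≠ 2 := by
      have : a ∈ (σ.erase q).erase 2 := by rw [hset]; simp
      simp only [Finset.mem_erase] at this; tauto
    have hb : b ∈ σ ∧ b ≠ q ∧ b ≠ 2 := by
      have : b ∈ (σ.erase q).erase 2 := by rw [hset]; simp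
      simp only [Finset.mem_erase] at this; tauto
    obtain ⟨x, y, hxy, hxo, hyo⟩ := hedge a ha.1 b hb.1 hab
    have hord : orderOf (x * y) = a * b := by
      rw [(commute' hxy).orderOf_mul_eq_mul_orderOf_of_coprime, hxo, hyo]
      rw [hxo, hyo]; exact (Nat.coprime_primes (hσp a ha.1) (hσp b hb.1)).mpr hab
    obtain ⟨g, hg⟩ := Hall.exists_le_conj (H := K) (K := zpowers (x * y))
      (Nat.coprime_of_dvd fun k hk h1 h2 => hKi k hk (hKπ k hk h1) h2)
      (by rw [Nat.card_zpowers, hord]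
          exact Nat.Coprime.mul_left ((hσp a ha.1).coprime_iff_not_dvd.mpr (hKi a (hσp a ha.1) (by simp [ha.1, ha.2.1])))
            ((hσp b hb.1).coprime_iff_not_dvd.mpr (hKi b (hσp b hb.1) (by simp [hb.1, hb.2.1]))))
    have hxm : x ∈ zpowers (x * y) ∧ y ∈ zpowers (x * y) := by
      have hcop : (orderOf x).Coprime (orderOf y) := by
        rw [hxo, hyo]; exact (Nat.coprime_primes (hσp a ha.1) (hσp b hb.1)).mpr hab
      obtain ⟨i, hi⟩ : ∃ i : ℕ, (x ^ orderOf y) ^ i = x := exists_pow_eq_self_of_coprime hcop.symm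
      have h1 : x ∈ zpowers (x * y) := by
        have h : (x * y) ^ orderOf y = x ^ orderOf y := by
          rw [(commute' hxy).mul_pow, pow_orderOf_eq_one, mul_one]
        have h' : x ^ orderOf y ∈ zpowers (x * y) := h ▸ pow_mem (mem_zpowers _) _
        have := pow_mem h' i
        rwa [hi] at this
      exact ⟨h1, by simpa using mul_mem (inv_mem h1) (mem_zpowers (x * y))⟩
    have hx' := hg hxm.1
    have hy' := hg hxm.2
    rw [mem_conj_smul] at hx' hy'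
    have hox : orderOf (g⁻¹ * x * g) = a := by
      rw [show g⁻¹ * x * g = MulAut.conj g⁻¹ x by simp, MulEquiv.orderOf_eq, hxo]
    have hoy : orderOf (g⁻¹ * y * g) = b := by
      rw [show g⁻¹ * y * g = MulAut.conj g⁻¹ y by simp, MulEquiv.orderOf_eq, hyo]
    refine hNT (g⁻¹ * x * g) (g⁻¹ * y * g) z ?_ (hzc _ hx') (hzc _ hy') (hox ▸ hσp a ha.1) (hoy ▸ hσp b hb.1)
      (hzo ▸ Nat.prime_two) (by rw [hox, hoy]; exact hab) (by rw [hox, hzo]; exact ha.2.2)
      (by rw [hoy, hzo]; exact hb.2.2)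
    calc g⁻¹ * x * g * (g⁻¹ * y * g) = g⁻¹ * (x * y) * g := by group
      _ = g⁻¹ * y * g * (g⁻¹ * x * g) := by rw [hxy]; group
  -- a noncyclic core somewhere in a subgroup of `K`
  have hexists : ∀ L : Subgroup G, ∀ S : Finset ℕ, S.Nonempty → (∀ l ∈ S, l ∈ σ ∧ l ≠ q) →
      (∀ l : ℕ, l.Prime → l ∣ Nat.card L → l ∈ S) →
      (∀ l ∈ S, ∃ A : Subgroup G, A ≤ L ∧ (∀ x ∈ A, ∀ y ∈ A, x * y = y * x) ∧ (∀ x ∈ A, x ^ l = 1) ∧
        Nat.card A = l ^ 2) →
      ∃ l ∈ S, ¬ IsCyclic (Cfsg.pCore l L) := by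
    intro L S hS hSσ hLS hLsq
    by_contra h
    push Not at h
    set s := S.max' hS with hs
    have hsS : s ∈ S := S.max'_mem hS
    haveI := Fact.mk (hσp s (hSσ s hsS).1)
    obtain ⟨A, hAL, hA, hAe, hAc⟩ := hLsq s hsS
    have hcyc : ∀ l : ℕ, l.Prime → IsCyclic (Cfsg.pCore l L) := by
      intro l hl
      haveI := Fact.mk hl
      by_cases hd : l ∣ Nat.card L
      · exact h l (hLS l hl hd)
      · rw [Hall.pCore_eq_bot_of_not_dvd hd]; infer_instance
    refine false_of_all_cyclic (L := L) (s := s) hcyc (A.subgroupOf L)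
      (fun a ha => Subtype.ext (by simpa using hAe _ ha))
      (by rw [Nat.card_congr (subgroupOfEquivOfLe hAL).toEquiv, hAc]) fun l hl hls a ha => ?_
    haveI := Fact.mk hl
    haveI := hcyc l hl
    by_cases hd : l ∣ Nat.card L
    · have hle : l ≤ s := S.le_max' l (hLS l hl hd)
      refine commute_of_cyclic (Fact.out : s.Prime) hls.symm (fun hdvd => ?_) (Hall.isPGroup_pCore l)
        (Subtype.ext (by simpa using hAe _ ha)) (le_normalizer_of_normal (mem_top a))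
      have := Nat.le_of_dvd (Nat.sub_pos_of_lt hl.one_lt) hdvd
      omega
    · rw [Hall.pCore_eq_bot_of_not_dvd hd]
      exact mem_centralizer_iff.mpr fun y hy => by rw [mem_bot.mp hy]; simp
  -- upper tier
  have hS3 : (σ.erase q).card = 3 := by rw [Finset.card_erase_of_mem hqσ, hσc]
  obtain ⟨r, hrS, hrnc⟩ := hexists K (σ.erase q) (Finset.card_pos.mp (by omega))
    (fun l hl => by rw [Finset.mem_erase] at hl; exact ⟨hl.2, hl.1⟩)
    (fun l hl hd => Finset.mem_erase.mpr ⟨(hKσ l hl hd).2, (hKσ l hl hd).1⟩)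
    (fun l hl => by rw [Finset.mem_erase] at hl; exact hsqK l hl.2 hl.1)
  obtain ⟨hrq, hrσ⟩ := Finset.mem_erase.mp hrS
  haveI hrF : Fact r.Prime := ⟨hσp r hrσ⟩
  obtain ⟨D, hDK, hKD, hDp, hDnc, -, hDX, hDex⟩ := exists_tier hrnc (fun _ => hno2K)
  have hD1 : D ≠ ⊥ := fun h => hDnc (by rw [h]; infer_instance)
  -- the other two primes
  set S2 := (σ.erase q).erase r with hS2
  have hS2card : S2.card = 2 := by rw [hS2, Finset.card_erase_of_mem hrS, hS3]
  have hS2' : ∀ l ∈ S2, l ∈ σ ∧ l ≠ q ∧ l ≠ r := fun l hl => by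
    simp only [hS2, Finset.mem_erase] at hl; tauto
  obtain ⟨L0, hL0π, hL0i⟩ := Hall.exists_piHall (G := K) (↑S2 : Set ℕ)
  let L : Subgroup G := L0.map K.subtype
  have hLK : L ≤ K := map_subtype_le _
  have hLcard : Nat.card L = Nat.card L0 := (Nat.card_congr (equivMapOfInjective L0 _ K.subtype_injective).toEquiv).symm
  have hLS : ∀ l : ℕ, l.Prime → l ∣ Nat.card L → l ∈ S2 := fun l hl hd => hL0π l hl (hLcard ▸ hd)
  have hLsq : ∀ l ∈ S2, ∃ A : Subgroup G, A ≤ L ∧ (∀ x ∈ A, ∀ y ∈ A, x * y = y * x) ∧ (∀ x ∈ A, x ^ l = 1) ∧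
      Nat.card A = l ^ 2 := by
    intro l hl
    obtain ⟨hlσ, hlq, -⟩ := hS2' l hl
    obtain ⟨A, hAK, hA, hAe, hAc⟩ := hsqK l hlσ hlq
    obtain ⟨A', hA'L, hA', hA'e, hA'c⟩ := exists_sq_le_conj (G := K) hL0π hL0i (hσp l hlσ) hl
      ⟨A.subgroupOf K, fun x hx y hy => Subtype.ext (hA _ hx _ hy),
        fun x hx => Subtype.ext (by simpa using hAe _ hx),
        by rw [Nat.card_congr (subgroupOfEquivOfLe hAK).toEquiv, hAc]⟩
    refine ⟨A'.map K.subtype, map_mono hA'L, ?_, ?_, ?_⟩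
    · rintro _ ⟨x, hx, rfl⟩ _ ⟨y, hy, rfl⟩; rw [← map_mul, ← map_mul, hA' x hx y hy]
    · rintro _ ⟨x, hx, rfl⟩; rw [← map_pow, hA'e x hx, map_one]
    · rw [← Nat.card_congr (equivMapOfInjective A' _ K.subtype_injective).toEquiv, hA'c]
  -- a fixed point free element with a commuting square is impossible
  have htwo : ∀ x ∈ L, ∀ {m : ℕ}, m.Prime → orderOf x = m → x ∈ centralizer (D : Set G) → ∀ {l : ℕ}, l.Prime →
      l ≠ m → l ≠ r → m ≠ r → ∀ A : Subgroup G, A ≤ L → (∀ a ∈ A, ∀ b ∈ A, a * b = b * a) →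
        (∀ a ∈ A, a ^ l = 1) → Nat.card A = l ^ 2 → (∀ a ∈ A, a * x = x * a) → False := by
    intro x hx m hm hxo hxD l hl hlm hlr hmr A hAL hA hAe hAc hAx
    obtain ⟨b, hb, hbo, hbf⟩ := exists_fixed_of_sq hl hlr hA hAe hAc hDp ((hAL.trans hLK).trans hKD) hD1
    obtain ⟨d, hd, hdo, hbd⟩ := hbf.exists_prime hDp
    exact hNT b x d (hAx b hb) hbd (mem_centralizer_iff.mp hxD d hd).symm (hbo ▸ hl) (hxo ▸ hm) (hdo ▸ hrF.out)
      (by rw [hbo, hxo]; exact hlm) (by rw [hbo, hdo]; exact hlr) (by rw [hxo, hdo]; exact hmr)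
  obtain ⟨s, hsS, hsnc⟩ := hexists L S2 (Finset.card_pos.mp (by omega))
    (fun l hl => ⟨(hS2' l hl).1, (hS2' l hl).2.1⟩) hLS hLsq
  obtain ⟨hsσ, hsq', hsr⟩ := hS2' s hsS
  haveI hsF : Fact s.Prime := ⟨hσp s hsσ⟩
  obtain ⟨t, htS, hts⟩ : ∃ t ∈ S2, t ≠ s := Finset.exists_mem_ne (by omega) s
  obtain ⟨htσ, htq, htr⟩ := hS2' t htS
  haveI htF : Fact t.Prime := ⟨hσp t htσ⟩
  obtain ⟨T, hTL, hT, hTe, hTc⟩ := hLsq t htS
  have hno2L : s = 2 → ∀ z ∈ L, orderOf z = 2 → (∀ g ∈ L, g * z = z * g) → False := by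
    intro hs2 z hz hzo hzc
    by_cases hfix : Fixes z W
    · exact hcommK z (hLK hz) Nat.prime_two hzo hfix htF.out (fun h => hts (h.trans hs2.symm)) T (hTL.trans hLK) hT
        hTe hTc (fun a ha => hzc a (hTL ha))
    · exact htwo z hz Nat.prime_two hzo (hfpf z (hLK hz) Nat.prime_two hzo hfix hrF.out
        (fun h => hsr (hs2.trans h.symm)) D hDK hDp (hKD (hLK hz)) (Or.inl rfl))
        htF.out (fun h => hts (h.trans hs2.symm)) htr (fun h => hsr (hs2.trans h)) T hTL hT hTe hTc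
        (fun a ha => hzc a (hTL ha))
  obtain ⟨E, hEL, hLE, hEp, hEnc, hEnr, hEX, hEex⟩ := exists_tier hsnc hno2L
  have hexD : ∀ m : ℕ, m = 2 ∨ r ≠ 2 ∨ ∀ a ∈ D, ∀ b ∈ D, a * b = b * a := fun m => Or.inr hDex
  -- every element of `T` has a fixed point
  have hTfix : ∀ y ∈ T, y ≠ 1 → Fixes y W := by
    intro y hy hy1
    by_contra hf
    have hyo := orderOf_eq_prime (hTe y hy) hy1
    have hyE := hfpf y (hLK (hTL hy)) htF.out hyo hf hsF.out hts.symm E (hEL.trans hLK) hEp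
      (hLE (hTL hy)) (Or.inr hEex)
    have hyD := hfpf y (hLK (hTL hy)) htF.out hyo hf hrF.out htr.symm D hDK hDp
      (hKD (hLK (hTL hy))) (hexD t)
    obtain ⟨B, hBE, hB, hBe, hBc⟩ := exists_sq hEp hEnr
    exact htwo y (hTL hy) htF.out hyo hyD hsF.out hts.symm hsr htr B (hBE.trans hEL) hB hBe hBc
      (fun b hb => (mem_centralizer_iff.mp hyE b (hBE hb)))
  have hsmall : ∀ {l : ℕ} [Fact l.Prime], l ≠ t → ∀ X : Subgroup G, X ≤ K → IsPGroup l X →
      (∀ Y : Subgroup G, Y ≤ X → RankOne l Y → IsCyclic Y) → ∀ y ∈ T, y ≠ 1 →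
        IsCyclic (X ⊓ centralizer {y} : Subgroup G) := by
    intro l _ hlt X hXK hXp hXY y hy hy1
    refine hXY _ inf_le_left ?_
    by_contra hr
    obtain ⟨B, hBX, hB, hBe, hBc⟩ := exists_sq (hXp.to_le inf_le_left) hr
    exact hcommK y (hLK (hTL hy)) htF.out (orderOf_eq_prime (hTe y hy) hy1) (hTfix y hy hy1)
      (Fact.out : l.Prime) hlt B ((hBX.trans inf_le_left).trans hXK) hB hBe hBc
      (fun b hb => mem_centralizer_singleton_iff.mp (hBX hb).2)
  have hE0 : IsCyclic (E ⊓ centralizer (D : Set G) : Subgroup G) := by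
    refine hEX _ inf_le_left ?_
    by_contra hr
    obtain ⟨B, hBX, hB, hBe, hBc⟩ := exists_sq (hEp.to_le inf_le_left) hr
    obtain ⟨b, hb, hbo, hbf⟩ := exists_fixed_of_sq hsF.out hsq' hB hBe hBc hWp (hWn B) hW
    refine hDnc ?_
    have hDb : D ⊓ centralizer {b} = D := inf_eq_left.mpr fun d hd =>
      mem_centralizer_singleton_iff.mpr (mem_centralizer_iff.mp (hBX hb).2 d hd)
    rw [← hDb]
    refine hDX _ inf_le_left ?_
    by_contra hr'
    obtain ⟨A, hAX, hA, hAe, hAc⟩ := exists_sq (hDp.to_le inf_le_left) hr'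
    exact hcommK b (hLK (hEL (hBX hb).1)) hsF.out hbo hbf hrF.out hsr.symm A ((hAX.trans inf_le_left).trans hDK)
      hA hAe hAc (fun a ha => mem_centralizer_singleton_iff.mp (hAX ha).2)
  refine endgame (r := r) (s := s) (t := t) hsr.symm htr.symm hts.symm D E T hDp hEp hT hTe hTc
    ((hTL.trans hLK).trans hKD) (hTL.trans hLE) ((hEL.trans hLK).trans hKD) hDnc hEnc hE0
    (hsmall htr.symm D hDK hDp hDX) (hsmall hts.symm E (hEL.trans hLK) hEp hEX) (Or.inr hEex) ?_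
  intro y hy hy1 e he he1 hye heD d hd hd1 hyd
  obtain ⟨e', he'o, he'⟩ := exists_pow_prime hEp he he1
  obtain ⟨d', hd'o, hd'⟩ := exists_pow_prime hDp hd hd1
  have hyo := orderOf_eq_prime (hTe y hy) hy1
  exact hNT y e' d' (commute_zpowers hye he') (commute_zpowers hyd hd')
    (mem_centralizer_iff.mp (zpowers_le.mpr heD he') d' (zpowers_le.mpr hd hd')).symm
    (hyo ▸ htF.out) (he'o ▸ hsF.out) (hd'o ▸ hrF.out) (by rw [hyo, he'o]; exact hts)
    (by rw [hyo, hd'o]; exact htr) (by rw [he'o, hd'o]; exact hsr)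

theorem false_of_four [Group.IsSolvable G] {σ : Finset ℕ} (hσc : σ.card = 4) (hσp : ∀ l ∈ σ, l.Prime)
    (hNT : NoTriple G) (hπ : ∀ l : ℕ, l.Prime → l ∣ Nat.card G → l ∈ σ)
    (hedge : ∀ a ∈ σ, ∀ b ∈ σ, a ≠ b → ∃ x y : G, x * y = y * x ∧ orderOf x = a ∧ orderOf y = b) : False := by
  classical
  have hdvd : ∀ l ∈ σ, l ∣ Nat.card G := by
    intro l hl
    obtain ⟨m, hm, hne⟩ := Finset.exists_mem_ne (s := σ) (by omega) l
    obtain ⟨x, -, -, hx, -⟩ := hedge l hl m hm hne.symm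
    exact hx ▸ orderOf_dvd_natCard x
  -- at least two classes of subgroups of every prime order
  have hsq : ∀ l ∈ σ, ∃ A : Subgroup G, (∀ x ∈ A, ∀ y ∈ A, x * y = y * x) ∧ (∀ x ∈ A, x ^ l = 1) ∧
      Nat.card A = l ^ 2 := by
    intro l hl
    haveI := Fact.mk (hσp l hl)
    obtain ⟨S⟩ : Nonempty (Sylow l G) := inferInstance
    by_cases hr : RankOne l (S : Subgroup G)
    swap
    · obtain ⟨A, -, hA⟩ := exists_sq S.isPGroup' hr
      exact ⟨A, hA⟩
    exfalso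
    haveI : Nontrivial (S : Subgroup G) := (nontrivial_iff_ne_bot _).mpr (S.ne_bot_of_dvd_card (hdvd l hl))
    obtain ⟨⟨x, hxS⟩, hxo⟩ := exists_prime_orderOf_dvd_card' l
      (S.isPGroup'.card_eq_or_dvd.resolve_left Finite.one_lt_card.ne')
    rw [Subgroup.orderOf_mk] at hxo
    let C := centralizer ({x} : Set G)
    have hC : ∀ m ∈ σ, m ≠ l → m ∣ Nat.card C := by
      intro m hm hml
      obtain ⟨u, v, huv, hu, hv⟩ := hedge l hl m hm hml.symm
      have hup : IsPGroup l (zpowers u) := isPGroup_zpowers (Fact.out) hu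
      obtain ⟨S', hS'⟩ := hup.exists_le_sylow
      obtain ⟨g, hg⟩ := MulAction.exists_smul_eq G S' S
      have hgu : g * u * g⁻¹ ∈ (S : Subgroup G) := by
        rw [← hg, Sylow.coe_subgroup_smul]
        exact conj_mem_conj_smul (hS' (mem_zpowers u))
      have hou : orderOf (g * u * g⁻¹) = l := by
        rw [show g * u * g⁻¹ = MulAut.conj g u by simp, MulEquiv.orderOf_eq, hu]
      have hxu : x ∈ zpowers (g * u * g⁻¹) := hr _ hgu x hxS hou hxo
      have hcomm : (g * v * g⁻¹) * (g * u * g⁻¹) = (g * u * g⁻¹) * (g * v * g⁻¹) := by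
        calc (g * v * g⁻¹) * (g * u * g⁻¹) = g * (v * u) * g⁻¹ := by group
          _ = _ := by rw [← huv]; group
      have hmem : g * v * g⁻¹ ∈ C := mem_centralizer_singleton_iff.mpr (commute_zpowers hcomm hxu)
      have := orderOf_dvd_natCard C hmem
      rwa [show g * v * g⁻¹ = MulAut.conj g v by simp, MulEquiv.orderOf_eq, hv] at this
    obtain ⟨a, b, c, hab, hac, hbc, hset⟩ := Finset.card_eq_three.mp
      (show (σ.erase l).card = 3 by rw [Finset.card_erase_of_mem hl, hσc])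
    have hmem : ∀ m, (m = a ∨ m = b ∨ m = c) → m ∈ σ ∧ m ≠ l := fun m hm => by
      have : m ∈ σ.erase l := by rw [hset]; simpa using hm
      exact ⟨(Finset.mem_erase.mp this).2, (Finset.mem_erase.mp this).1⟩
    have ha := hmem a (Or.inl rfl)
    have hb := hmem b (Or.inr (Or.inl rfl))
    have hc := hmem c (Or.inr (Or.inr rfl))
    haveI : Group.IsSolvable C := Group.isSolvable_of_isSolvable_injective C.subtype_injective
    obtain ⟨u, v, huv, h⟩ := exists_commute_of_three (H := C) (hσp a ha.1) (hσp b hb.1) (hσp c hc.1) hab hac hbc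
      (hC a ha.1 ha.2) (hC b hb.1 hb.2) (hC c hc.1 hc.2)
    obtain ⟨m, n, hum, hvn, hmn, hm, hn⟩ : ∃ m n, orderOf u = m ∧ orderOf v = n ∧ m ≠ n ∧
        (m = a ∨ m = b ∨ m = c) ∧ (n = a ∨ n = b ∨ n = c) := by
      rcases h with ⟨h1, h2⟩ | ⟨h1, h2⟩ | ⟨h1, h2⟩
      · exact ⟨a, b, h1, h2, hab, by simp, by simp⟩
      · exact ⟨a, c, h1, h2, hac, by simp, by simp⟩
      · exact ⟨b, c, h1, h2, hbc, by simp, by simp⟩
    rw [← Subgroup.orderOf_coe] at hum hvn
    exact hNT x u v (mem_centralizer_singleton_iff.mp u.2).symm (mem_centralizer_singleton_iff.mp v.2).symm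
      (congrArg Subtype.val huv) (hxo ▸ (Fact.out : l.Prime)) (hum ▸ hσp m (hmem m hm).1)
      (hvn ▸ hσp n (hmem n hn).1) (by rw [hxo, hum]; exact (hmem m hm).2.symm)
      (by rw [hxo, hvn]; exact (hmem n hn).2.symm) (by rw [hum, hvn]; exact hmn)
  obtain ⟨l0, hl0⟩ : σ.Nonempty := Finset.card_pos.mp (by omega)
  haveI : Nontrivial G := Finite.one_lt_card_iff_nontrivial.mp
    ((hσp l0 hl0).one_lt.trans_le (Nat.le_of_dvd Nat.card_pos (hdvd l0 hl0)))
  obtain ⟨N, q, hN, hN1, hq, hNq, -, -⟩ := Hall.exists_normal_pgroup (G := G)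
  haveI := hN
  haveI := Fact.mk hq
  have hQ : Cfsg.pCore q G ≠ ⊥ := fun h => hN1 (le_bot_iff.mp (h ▸ Hall.le_pCore hNq))
  have hcore : ∀ l : ℕ, l.Prime → Cfsg.pCore l G ≠ ⊥ → l ∈ σ := fun l hl h => by
    haveI := Fact.mk hl
    exact hπ l hl (not_not.mp fun hd => h (Hall.pCore_eq_bot_of_not_dvd hd))
  have hqσ := hcore q hq hQ
  by_cases honly : ∀ l : ℕ, l.Prime → l ≠ q → Cfsg.pCore l G = ⊥
  · exact false_of_one_core hNT hσc hσp hπ hsq hedge hqσ hQ honly
  push Not at honly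
  obtain ⟨p, hp, hpq, hP⟩ := honly
  haveI := Fact.mk hp
  have hpσ := hcore p hp hP
  obtain ⟨r, s, hrs, hset⟩ := Finset.card_eq_two.mp (show ((σ.erase p).erase q).card = 2 by
    rw [Finset.card_erase_of_mem (Finset.mem_erase.mpr ⟨hpq.symm, hqσ⟩), Finset.card_erase_of_mem hpσ, hσc])
  have hr : r ≠ q ∧ r ≠ p ∧ r ∈ σ := by
    have : r ∈ (σ.erase p).erase q := by rw [hset]; simp
    simpa only [Finset.mem_erase] using this
  have hs : s ≠ q ∧ s ≠ p ∧ s ∈ σ := by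
    have : s ∈ (σ.erase p).erase q := by rw [hset]; simp
    simpa only [Finset.mem_erase] using this
  haveI := Fact.mk (hσp r hr.2.2)
  haveI := Fact.mk (hσp s hs.2.2)
  refine false_of_two_cores hNT hpq hr.2.1.symm hs.2.1.symm hr.1.symm hs.1.symm hrs (fun l hl hd => ?_)
    (fun l hl => hsq l (by rcases hl with rfl | rfl | rfl | rfl <;> [exact hpσ; exact hqσ; exact hr.2.2; exact hs.2.2]))
    hP hQ
  by_contra h
  push Not at h
  have : l ∈ (σ.erase p).erase q := by simp [h.1, h.2.1, hπ l hl hd]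
  rw [hset] at this
  simp [h.2.2.1, h.2.2.2] at this

theorem not_isSolvable {σ : Finset ℕ} (hσ : 4 ≤ σ.card) (hprime : ∀ p ∈ σ, p.Prime)
    (h2 : ∀ p ∈ σ, ∀ q ∈ σ, p ≠ q → ∃ g : G, orderOf g = p * q)
    (h3 : ∀ p ∈ σ, ∀ q ∈ σ, ∀ r ∈ σ, p ≠ q → q ≠ r → p ≠ r → ∀ g : G, orderOf g ≠ p * q * r) :
    ¬ Group.IsSolvable G := by
  intro hsol
  obtain ⟨τ, hτσ, hτc⟩ := Finset.exists_subset_card_eq hσ
  obtain ⟨H, hHπ, hHi⟩ := Hall.exists_piHall (G := G) (↑τ : Set ℕ)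
  haveI : Group.IsSolvable H := Group.isSolvable_of_isSolvable_injective H.subtype_injective
  refine false_of_four (G := H) hτc (fun l hl => hprime l (hτσ hl)) ?_ (fun l hl hd => hHπ l hl hd) ?_
  · intro a b c hab hac hbc ha hb hc hne1 hne2 hne3
    have hmem : ∀ u : H, (orderOf u).Prime → orderOf u ∈ σ := fun u hu =>
      hτσ (hHπ _ hu (orderOf_dvd_natCard u))
    have hcop : (orderOf a).Coprime (orderOf b) := (Nat.coprime_primes ha hb).mpr hne1
    have h1 : orderOf (a * b) = orderOf a * orderOf b :=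
      (commute' hab).orderOf_mul_eq_mul_orderOf_of_coprime hcop
    have h4 : orderOf (a * b * c) = orderOf a * orderOf b * orderOf c := by
      rw [((commute' hac).mul_left (commute' hbc)).orderOf_mul_eq_mul_orderOf_of_coprime, h1]
      rw [h1]
      exact Nat.Coprime.mul_left ((Nat.coprime_primes ha hc).mpr hne2) ((Nat.coprime_primes hb hc).mpr hne3)
    exact h3 _ (hmem a ha) _ (hmem b hb) _ (hmem c hc) hne1 hne3 hne2 ((a * b * c : H) : G)
      (by rw [Subgroup.orderOf_coe, h4])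
  · intro a ha b hb hab
    obtain ⟨g, hg⟩ := h2 a (hτσ ha) b (hτσ hb) hab
    have hap := hprime a (hτσ ha)
    have hbp := hprime b (hτσ hb)
    obtain ⟨z, hz⟩ := Hall.exists_le_conj (H := H) (K := zpowers g)
      (Nat.coprime_of_dvd fun k hk h1 h2 => hHi k hk (hHπ k hk h1) h2)
      (by rw [Nat.card_zpowers, hg]
          exact Nat.Coprime.mul_left (hap.coprime_iff_not_dvd.mpr (hHi a hap (by simpa using ha)))
            (hbp.coprime_iff_not_dvd.mpr (hHi b hbp (by simpa using hb))))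
    have hh := hz (mem_zpowers g)
    rw [mem_conj_smul] at hh
    have ho : orderOf (⟨_, hh⟩ : H) = a * b := by
      rw [Subgroup.orderOf_mk, show z⁻¹ * g * z = MulAut.conj z⁻¹ g by simp, MulEquiv.orderOf_eq, hg]
    refine ⟨(⟨_, hh⟩ : H) ^ b, (⟨_, hh⟩ : H) ^ a, ((Commute.refl _).pow_pow b a).eq, ?_, ?_⟩
    · rw [orderOf_pow_of_dvd hbp.ne_zero (ho ▸ dvd_mul_left b a), ho, Nat.mul_div_cancel _ hbp.pos]
    · rw [orderOf_pow_of_dvd hap.ne_zero (ho ▸ dvd_mul_right a b), ho, Nat.mul_div_cancel_left _ hap.pos]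

end Cfsg.Agent.Lib.FourJoined
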